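import Mathlib
import Cfsg.Agent.Lib.Core.TwoF
import Cfsg.Agent.Lib.PGrp.Basic
import Cfsg.Agent.Lib.Coprime.Generate
import Cfsg.Agent.Lib.Coprime.SylowOrbit

/-!
# Regular orbits of odd `p`-groups on power sets; maximal point stabilizers of abelian groups
-/

set_option autoImplicit false

namespace Cfsg.Agent.Core

open Subgroup MulAction
open scoped commutatorElement

section Gluck

variable {Γ Ω : Type*} [Group Γ] [Finite Γ] [MulAction Γ Ω] {p : ℕ} [hp : Fact p.Prime]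

theorem inv_smul_mem_of_forall_smul_mem {J : Set Ω} {r : Γ} (h : ∀ x ∈ J, r • x ∈ J) {x : Ω}
    (hx : r • x ∈ J) : x ∈ J := by
  have h1 : ∀ n : ℕ, ∀ y ∈ J, r ^ n • y ∈ J := fun n => by
    induction n with
    | zero => simp
    | succ n ih => intro y hy; rw [pow_succ', mul_smul]; exact h _ (ih y hy)
  have h2 := h1 (orderOf r - 1) _ hx
  rwa [← mul_smul, ← pow_succ, Nat.sub_add_cancel (orderOf_pos r), pow_orderOf_eq_one,
    one_smul] at h2

/-- Gluck's theorem for odd `p`-groups. -/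
theorem exists_regular_subset (hp2 : p ≠ 2) (R : Subgroup Γ) : IsPGroup p R →
    ∀ S : Set Ω, S.Finite → (∀ r ∈ R, ∀ x ∈ S, r • x ∈ S) →
      ∃ J ⊆ S, ∀ r ∈ R, (∀ x ∈ J, r • x ∈ J) → ∀ x ∈ S, r • x = x := by
  classical
  induction R using subgroup_induction_lt with
  | h R ih =>
  intro hR S hS
  induction hn : S.ncard using Nat.strong_induction_on generalizing S with
  | _ n ihS =>
  intro hinv
  rcases S.eq_empty_or_nonempty with rfl | ⟨x₀, hx₀⟩
  · exact ⟨∅, le_rfl, fun _ _ _ x hx => hx.elim⟩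
  have horb : ∀ {M : Subgroup Γ} {x y : Ω}, y ∈ orbit M x ↔ ∃ m ∈ M, m • x = y :=
    ⟨fun ⟨m, hm⟩ => ⟨m, m.2, hm⟩, fun ⟨m, hm, e⟩ => ⟨⟨m, hm⟩, e⟩⟩
  have hOS : orbit R x₀ ⊆ S := fun y hy => by
    obtain ⟨m, hm, rfl⟩ := horb.1 hy
    exact hinv m hm _ hx₀
  have hO : ∀ r ∈ R, ∀ x ∈ orbit R x₀, r • x ∈ orbit R x₀ := fun r hr x hx => by
    obtain ⟨m, hm, rfl⟩ := horb.1 hx
    exact horb.2 ⟨r * m, R.mul_mem hr hm, mul_smul _ _ _⟩
  by_cases hSO : orbit R x₀ = S
  swap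
  · have hO' : ∀ r ∈ R, ∀ x ∈ S \ orbit R x₀, r • x ∈ S \ orbit R x₀ := fun r hr x hx =>
      ⟨hinv r hr x hx.1, fun h => hx.2 (inv_smul_mem_of_forall_smul_mem (hO r hr) h)⟩
    obtain ⟨J₁, h1, h2⟩ := ihS _ (hn ▸ Set.ncard_lt_ncard (ssubset_of_subset_of_ne hOS hSO) hS) _
      (hS.subset hOS) rfl hO
    obtain ⟨J₂, h3, h4⟩ := ihS _ (hn ▸ Set.ncard_lt_ncard
      (Set.sdiff_ssubset_left_iff.2 ⟨x₀, hx₀, mem_orbit_self x₀⟩) hS) _ hS.sdiff rfl hO'
    refine ⟨J₁ ∪ J₂, Set.union_subset (h1.trans hOS) (h3.trans Set.sdiff_subset),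
      fun r hr h x hx => ?_⟩
    by_cases hxO : x ∈ orbit R x₀
    · refine h2 r hr (fun y hy => (h y (Or.inl hy)).resolve_right fun hh => ?_) x hxO
      exact (h3 hh).2 (hO r hr y (h1 hy))
    · refine h4 r hr (fun y hy => (h y (Or.inr hy)).resolve_left fun hh => ?_) x ⟨hx, hxO⟩
      exact (hO' r hr y (h3 hy)).2 (h1 hh)
  by_cases hfix : R ≤ stabilizer Γ x₀
  · refine ⟨∅, Set.empty_subset _, fun r hr _ x hx => ?_⟩
    rw [← hSO] at hx
    obtain ⟨m, hm, rfl⟩ := horb.1 hx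
    rw [show m • x₀ = x₀ from hfix hm]
    exact hfix hr
  obtain ⟨M', hM1, hM2, hM3⟩ := PGrp.exists_le_index_eq hR
    (H := (stabilizer Γ x₀).subgroupOf R) (fun e => hfix (subgroupOf_eq_top.1 e))
  obtain ⟨M, hM⟩ : ∃ M, M = M'.map R.subtype := ⟨_, rfl⟩
  have hMR : M ≤ R := hM ▸ map_subtype_le _
  have hMn : R ≤ normalizer (M : Set Γ) := hM ▸ le_normalizer_map_subtype R M'
  have hMlt : M < R := lt_of_le_of_ne hMR fun e => by
    have : M' = ⊤ := by
      rw [eq_top_iff]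
      intro x _
      obtain ⟨y, hy, e'⟩ := (hM ▸ e ▸ x.2 : (x : Γ) ∈ M'.map R.subtype)
      rwa [← Subtype.ext e']
    rw [this, index_top] at hM2
    exact hp.out.one_lt.ne hM2
  obtain ⟨J', hJ1, hJ2⟩ := ih M hMlt (hR.to_le hMR) S hS fun r hr => hinv r (hMR hr)
  have hodd : ∀ x : Ω, Odd (orbit M x).ncard := fun x => by
    obtain ⟨k, hk⟩ := (hR.to_le hMR).index (stabilizer M x)
    rw [index_stabilizer] at hk
    rw [hk]
    exact (hp.out.odd_of_ne_two hp2).pow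
  have hfin : ∀ x : Ω, (orbit M x).Finite := fun x => Set.finite_range _
  let flag : Ω → Prop := fun x =>
    ((orbit M x).ncard < 2 * (J' ∩ orbit M x).ncard ↔ x ∈ orbit M x₀)
  have horb_eq : ∀ {x y : Ω}, y ∈ orbit M x → orbit M y = orbit M x := fun h => orbit_eq_iff.2 h
  have hflag : ∀ {x y : Ω}, y ∈ orbit M x → (flag y ↔ flag x) := fun {x y} h => by
    simp only [flag]
    rw [horb_eq h, ← orbit_eq_iff, ← orbit_eq_iff, horb_eq h]
  let J : Set Ω := {x | x ∈ S ∧ (x ∈ J' ↔ flag x)}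
  have hsize : ∀ x ∈ S, ((orbit M x).ncard < 2 * (J ∩ orbit M x).ncard ↔ x ∈ orbit M x₀) := by
    intro x hx
    have hsub : orbit M x ⊆ S := fun y hy => by
      obtain ⟨m, hm, rfl⟩ := horb.1 hy
      exact hinv m (hMR hm) _ hx
    by_cases hf : flag x
    · have : J ∩ orbit M x = J' ∩ orbit M x := by
        ext y
        exact ⟨fun h => ⟨h.1.2.2 ((hflag h.2).2 hf), h.2⟩,
          fun h => ⟨⟨hsub h.2, iff_of_true h.1 ((hflag h.2).2 hf)⟩, h.2⟩⟩
      rw [this]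
      exact hf
    · have : J ∩ orbit M x = orbit M x \ J' := by
        ext y
        exact ⟨fun h => ⟨h.2, fun h' => hf ((hflag h.2).1 (h.1.2.1 h'))⟩,
          fun h => ⟨⟨hsub h.1, iff_of_false h.2 fun h' => hf ((hflag h.1).1 h')⟩, h.1⟩⟩
      have h2 := Set.ncard_inter_add_ncard_sdiff_eq_ncard (orbit M x) J' (hfin x)
      obtain ⟨k, hk⟩ := hodd x
      rw [this]
      simp only [flag] at hf
      rw [Set.inter_comm] at hf
      by_cases hx0 : x ∈ orbit M x₀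
      · simp only [hx0, iff_true] at hf ⊢
        omega
      · simp only [hx0, iff_false] at hf ⊢
        omega
  refine ⟨J, fun x hx => hx.1, fun r hr h => ?_⟩
  have hrM : r ∈ M := by
    have e : orbit M (r • x₀) = (fun y => r • y) '' orbit M x₀ := by
      ext y
      constructor
      · intro hy
        obtain ⟨m, hm, rfl⟩ := horb.1 hy
        refine ⟨_, horb.2 ⟨_, Coprime.conj_mem_of_le_normalizer' hMn hr hm, rfl⟩, ?_⟩
        simp [mul_smul]
      · rintro ⟨_, hy, rfl⟩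
        obtain ⟨m, hm, rfl⟩ := horb.1 hy
        refine horb.2 ⟨_, Coprime.conj_mem_of_le_normalizer hMn hr hm, ?_⟩
        simp [mul_smul]
    have h1 := (hsize x₀ hx₀).2 (mem_orbit_self _)
    have h2 : (J ∩ orbit M x₀).ncard ≤ (J ∩ orbit M (r • x₀)).ncard := by
      rw [← Set.ncard_image_of_injective _ (MulAction.injective r)]
      refine Set.ncard_le_ncard ?_ ((hfin _).inter_of_right _)
      rintro _ ⟨y, hy, rfl⟩
      exact ⟨h y hy.1, e ▸ ⟨y, hy.2, rfl⟩⟩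
    have h3 := (hsize _ (hinv r hr _ hx₀)).1 (by
      rw [e, Set.ncard_image_of_injective _ (MulAction.injective r), ← e]
      omega)
    obtain ⟨m, hm, e'⟩ := horb.1 h3
    have h4 : m⁻¹ * r ∈ M := by
      rw [hM]
      refine ⟨⟨_, R.mul_mem (R.inv_mem (hMR hm)) hr⟩, hM1 ?_, rfl⟩
      change (m⁻¹ * r) • x₀ = x₀
      rw [mul_smul, ← e', inv_smul_smul]
    simpa using M.mul_mem hm h4
  refine hJ2 r hrM fun x hx => ?_
  have hxr : r • x ∈ orbit M x := horb.2 ⟨r, hrM, rfl⟩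
  by_cases hf : flag x
  · exact (h x ⟨hJ1 hx, iff_of_true hx hf⟩).2.2 ((hflag hxr).2 hf)
  · by_contra hh
    have := inv_smul_mem_of_forall_smul_mem h
      (⟨hinv r hr x (hJ1 hx), iff_of_false hh fun h' => hf ((hflag hxr).1 h')⟩ : r • x ∈ J)
    exact hf (this.2.1 hx)

end Gluck

variable {X : Type*} [Group X] [Finite X]

/-- `D` is a maximal stabilizer in `B` of a nonidentity element of `V`. -/
structure IsMaxStab (B V D : Subgroup X) : Prop where
  le : D ≤ B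
  ne : V ⊓ centralizer (D : Set X) ≠ ⊥
  max : ∀ v ∈ V ⊓ centralizer (D : Set X), v ≠ 1 → B ⊓ centralizer {v} ≤ D

theorem exists_isMaxStab (B : Subgroup X) {V : Subgroup X} (hV : V ≠ ⊥) : ∃ D, IsMaxStab B V D := by
  obtain ⟨D, -, ⟨h1, h2⟩, h3⟩ := exists_maximal_ge
    (P := fun D => D ≤ B ∧ V ⊓ centralizer (D : Set X) ≠ ⊥) (H := ⊥)
    ⟨bot_le, by rwa [inf_eq_left.2 (le_centralizer_iff.1 bot_le)]⟩
  refine ⟨D, h1, h2, fun v hv hv1 => (h3 _ ⟨inf_le_left, fun e => hv1 ?_⟩ ?_).le⟩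
  · rw [← mem_bot, ← e]
    exact mem_inf.2 ⟨(mem_inf.1 hv).1, fun b hb => mem_centralizer_singleton_iff.1 (mem_inf.1 hb).2⟩
  · exact le_inf h1 fun d hd => mem_centralizer_singleton_iff.2 ((mem_inf.1 hv).2 d hd)

omit [Finite X] in
theorem conj_mem_inf_centralizer {V D : Subgroup X} {g v : X} (hV : g ∈ normalizer (V : Set X))
    (hv : v ∈ V ⊓ centralizer (D : Set X)) :
    g * v * g⁻¹ ∈ V ⊓ centralizer ((D.map (MulAut.conj g).toMonoidHom : Subgroup X) : Set X) := by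
  rw [centralizer_map_conj]
  exact mem_inf.2 ⟨(mem_normalizer_iff.1 hV v).1 (mem_inf.1 hv).1, conj_mem_map_conj (mem_inf.1 hv).2⟩

omit [Finite X] in
theorem conj_mem_commutator {V D : Subgroup X} {g v : X} (hV : g ∈ normalizer (V : Set X))
    (hv : v ∈ ⁅V, D⁆) : g * v * g⁻¹ ∈ ⁅V, D.map (MulAut.conj g).toMonoidHom⁆ := by
  have h1 := conj_mem_map_conj (g := g) hv
  rw [Subgroup.map_commutator] at h1
  refine commutator_mono ?_ le_rfl h1
  rintro _ ⟨w, hw, rfl⟩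
  exact (mem_normalizer_iff.1 hV w).1 hw

omit [Finite X] in
theorem IsMaxStab.map_conj {B V D : Subgroup X} (h : IsMaxStab B V D) {g : X}
    (hB : g ∈ normalizer (B : Set X)) (hV : g ∈ normalizer (V : Set X)) :
    IsMaxStab B V (D.map (MulAut.conj g).toMonoidHom) := by
  refine ⟨?_, fun e => h.ne (eq_bot_iff.2 fun v hv => ?_), fun v hv hv1 b hb => ?_⟩
  · rintro _ ⟨d, hd, rfl⟩
    exact (mem_normalizer_iff.1 hB d).1 (h.le hd)
  · have := conj_mem_inf_centralizer hV hv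
    rw [e, mem_bot] at this
    simpa using this
  · have h1 := conj_mem_inf_centralizer (inv_mem hV) hv
    rw [map_conj_map_conj, inv_mul_cancel, map_conj_one] at h1
    rw [mem_map_conj]
    refine h.max _ h1 (fun e => hv1 (conj_eq_one_iff.1 e)) (mem_inf.2 ⟨?_, ?_⟩)
    · simpa using (mem_normalizer_iff.1 (inv_mem hB) b).1 (mem_inf.1 hb).1
    · have := mem_centralizer_singleton_iff.1 (mem_inf.1 hb).2
      rw [mem_centralizer_singleton_iff]
      calc g⁻¹ * b * g * (g⁻¹ * v * g⁻¹⁻¹) = g⁻¹ * (b * v) * g := by group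
        _ = _ := by rw [this]; group

section
variable {B V : Subgroup X} (hB : IsMulCommutative B) (hV : IsMulCommutative V)
  (hBV : B ≤ normalizer (V : Set X)) (hcop : (Nat.card B).Coprime (Nat.card V))

include hB hBV hcop in
theorem IsMaxStab.le_commutator {D D' : Subgroup X} (h : IsMaxStab B V D) (h' : IsMaxStab B V D')
    (hne : D' ≠ D) : V ⊓ centralizer (D' : Set X) ≤ ⁅V, D⁆ := by
  have hn : D ≤ normalizer ((V ⊓ centralizer (D' : Set X) : Subgroup X) : Set X) :=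
    le_normalizer_inf (h.le.trans hBV) (le_trans (b := centralizer (D' : Set X)) (fun d hd x hx =>
      Coprime.mul_comm_of_mem hB (h'.le hx) (h.le hd)) le_normalizer)
  have h1 := Coprime.centralizer_sup_commutator hn (Coprime.coprime_mono hcop h.le inf_le_left)
    (Or.inl (Coprime.isSolvable_of_isMulCommutative (isMulCommutative_of_le hB h.le)))
  have h2 : V ⊓ centralizer (D' : Set X) ⊓ centralizer (D : Set X) = ⊥ := by
    rw [eq_bot_iff]
    intro v hv
    by_contra hv1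
    obtain ⟨h3, h4⟩ := mem_inf.1 hv
    have a1 := h.max v (mem_inf.2 ⟨(mem_inf.1 h3).1, h4⟩) hv1
    have a2 := h'.max v h3 hv1
    exact hne (le_antisymm
      ((le_inf h'.le fun d hd => mem_centralizer_singleton_iff.2 ((mem_inf.1 h3).2 d hd)).trans a1)
      ((le_inf h.le fun d hd => mem_centralizer_singleton_iff.2 (h4 d hd)).trans a2))
  rw [h2, bot_sup_eq] at h1
  exact h1.ge.trans (commutator_mono inf_le_left le_rfl)

include hB hV hBV hcop in
theorem exists_of_components (w : Subgroup X → X)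
    (hw : ∀ D : Subgroup X, w D ∈ V ⊓ centralizer (D : Set X)) :
    ∃ v ∈ V, ∀ D, IsMaxStab B V D → v * (w D)⁻¹ ∈ ⁅V, D⁆ := by
  have key : ∀ I : Set (Subgroup X), (∀ D ∈ I, IsMaxStab B V D) → ∃ v ∈ V,
      ∀ D, IsMaxStab B V D → (D ∈ I → v * (w D)⁻¹ ∈ ⁅V, D⁆) ∧ (D ∉ I → v ∈ ⁅V, D⁆) := by
    intro I
    induction I, Set.toFinite I using Set.Finite.induction_on with
    | empty => exact fun _ => ⟨1, V.one_mem, fun D _ => ⟨fun h => h.elim, fun _ => one_mem _⟩⟩
    | @insert D₁ I hD₁ _ ih =>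
      intro hI
      obtain ⟨v, hv, h⟩ := ih fun D hD => hI D (Or.inr hD)
      have h1 := hI D₁ (Or.inl rfl)
      refine ⟨v * w D₁, V.mul_mem hv (mem_inf.1 (hw D₁)).1, fun D hD => ⟨?_, fun hDI => ?_⟩⟩
      · rintro (rfl | hDI)
        · simpa using (h D hD).2 hD₁
        · have h2 := hD.le_commutator hB hBV hcop h1 (fun e => hD₁ (e ▸ hDI)) (hw D₁)
          rw [mul_assoc, Coprime.mul_comm_of_mem hV (mem_inf.1 (hw D₁)).1
            (V.inv_mem (mem_inf.1 (hw D)).1), ← mul_assoc]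
          exact mul_mem ((h D hD).1 hDI) h2
      · exact mul_mem ((h D hD).2 fun hh => hDI (Or.inr hh))
          (hD.le_commutator hB hBV hcop h1 (fun e => hDI (Or.inl e.symm)) (hw D₁))
  obtain ⟨v, hv, h⟩ := key {D | IsMaxStab B V D} fun D hD => hD
  exact ⟨v, hv, fun D hD => (h D hD).1 hD⟩

include hV hBV hcop in
theorem component_conj {w : Subgroup X → X} (hw : ∀ D : Subgroup X, w D ∈ V ⊓ centralizer (D : Set X)) {v : X}
    (h : ∀ D, IsMaxStab B V D → v * (w D)⁻¹ ∈ ⁅V, D⁆) {x : X} (hxB : x ∈ normalizer (B : Set X))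
    (hxV : x ∈ normalizer (V : Set X)) (hxv : Commute x v) {D : Subgroup X}
    (hD : IsMaxStab B V D) : x * w D * x⁻¹ = w (D.map (MulAut.conj x).toMonoidHom) := by
  have hD' := hD.map_conj hxB hxV
  have h1 := conj_mem_commutator hxV (h D hD)
  have h2 := h _ hD'
  have h3 := conj_mem_inf_centralizer hxV (hw D)
  have h4 := Coprime.centralizer_inf_commutator_eq_bot (hD'.le.trans hBV)
    (Coprime.coprime_mono hcop hD'.le le_rfl) hV
  rw [← mul_inv_eq_one, ← mem_bot, ← h4]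
  refine mem_inf.2 ⟨mul_mem h3 (inv_mem (hw _)), ?_⟩
  have := mul_mem (inv_mem h1) h2
  rwa [show (x * (v * (w D)⁻¹) * x⁻¹)⁻¹ = x * w D * (x * v)⁻¹ * x * x⁻¹ by group, hxv.eq,
    show ∀ u, x * w D * (v * x)⁻¹ * x * x⁻¹ * (v * u) = x * w D * x⁻¹ * u from fun u => by group]
    at this

end

end Cfsg.Agent.Core
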