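import Mathlib
import Cfsg.Agent.Lib.Core.Gluck
import Cfsg.Agent.Lib.Core.Primitive
import Cfsg.Agent.Lib.PGrp.Symplectic
import Cfsg.Agent.Lib.PGrp.ClassTwo
import Cfsg.Agent.Lib.PGrp.CyclicNormal

/-!
# A module is not covered by the fixed points of a class of `p`-elements in a normal `p`-subgroup
-/

set_option autoImplicit false

namespace Cfsg.Agent.Core

open Subgroup
open scoped commutatorElement Pointwise

universe u

variable {X : Type*} [Group X] [Finite X] {p : ℕ} [hp : Fact p.Prime]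

omit [Finite X] in
theorem map_conj_eq_of_mem_normalizer' {D : Subgroup X} {g : X} (h : g ∈ normalizer (D : Set X)) :
    D.map (MulAut.conj g).toMonoidHom = D := by
  ext x
  rw [mem_map_conj]
  simpa using (mem_normalizer_iff.1 (inv_mem h) x).symm

/-- An odd `p`-group of exponent `p` and class two whose centre acts semiregularly has a regular
orbit. -/
theorem exists_regular_of_class_two (hp2 : p ≠ 2) {V R : Subgroup X} (hV : IsMulCommutative V)
    (hV1 : V ≠ ⊥) (hRV : R ≤ normalizer (V : Set X)) (hcop : (Nat.card R).Coprime (Nat.card V))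
    (he : ∀ x ∈ R, x ^ p = 1) (hc : ∀ x ∈ R, ∀ y ∈ R, ⁅x, y⁆ ∈ centralizer (R : Set X))
    (hZ : ∀ v ∈ V, v ≠ 1 → R ⊓ centralizer (R : Set X) ⊓ centralizer {v} = ⊥) :
    ∃ v ∈ V, ∀ x ∈ R, Commute x v → x = 1 := by
  classical
  by_cases hab : R ≤ centralizer (R : Set X)
  · obtain ⟨⟨v, hv⟩, hv1⟩ := (ne_bot_iff_exists_ne_one).1 hV1
    refine ⟨v, hv, fun x hx h => ?_⟩
    rw [← mem_bot, ← hZ v hv fun e => hv1 (Subtype.ext e)]
    exact mem_inf.2 ⟨mem_inf.2 ⟨hx, hab hx⟩, mem_centralizer_singleton_iff.2 h.eq⟩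
  have hcR : ∀ x ∈ R, ∀ y ∈ R, ⁅x, y⁆ ∈ R ⊓ centralizer (R : Set X) := fun x hx y hy =>
    mem_inf.2 ⟨R.mul_mem (R.mul_mem (R.mul_mem hx hy) (R.inv_mem hx)) (R.inv_mem hy), hc x hx y hy⟩
  obtain ⟨Z, hZd⟩ : ∃ Z, Z = R ⊓ centralizer (R : Set X) := ⟨_, rfl⟩
  rw [← hZd] at hZ hcR
  have hZc : Z ≤ centralizer (R : Set X) := hZd ▸ inf_le_right
  have hZ1 : Z ≠ ⊥ := fun e => hab fun x hx y hy =>
    (commutatorElement_eq_one_iff_commute.1 (mem_bot.1 (e ▸ hcR y hy x hx))).eq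
  obtain ⟨B, -, ⟨hBR, hB⟩, hmax⟩ := exists_maximal_ge
    (P := fun B => B ≤ R ∧ IsMulCommutative B) (H := ⊥) ⟨bot_le, inferInstance⟩
  have hBC : ∀ r ∈ R, r ∈ centralizer (B : Set X) → r ∈ B := fun r hr h => by
    rw [← hmax (B ⊔ zpowers r) ⟨sup_le hBR (zpowers_le.2 hr), PGrp.isMulCommutative_sup hB
      inferInstance (le_centralizer_iff.1 (zpowers_le.2 h))⟩ le_sup_left]
    exact mem_sup_right (mem_zpowers r)
  have hZB : Z ≤ B := fun z hz => hBC z (mem_inf.1 (hZd ▸ hz)).1 (centralizer_le hBR (hZc hz))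
  have hRB : R ≤ normalizer (B : Set X) := fun r hr => mem_normalizer_of_map_conj_le (by
    rintro _ ⟨b, hb, rfl⟩
    have := B.mul_mem (hZB (hcR r hr b (hBR hb))) hb
    simpa [commutatorElement_def] using this)
  have hBV := hBR.trans hRV
  have hcB := Coprime.coprime_mono hcop hBR le_rfl
  have hDZ : ∀ D, IsMaxStab B V D → ∀ z ∈ D, z ∈ Z → z = 1 := fun D hD z h1 h2 => by
    obtain ⟨⟨v, hv⟩, hv1⟩ := (ne_bot_iff_exists_ne_one).1 hD.ne
    rw [← mem_bot, ← hZ v (mem_inf.1 hv).1 fun e => hv1 (Subtype.ext e)]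
    exact mem_inf.2 ⟨h2, mem_centralizer_singleton_iff.2 ((mem_inf.1 hv).2 z h1)⟩
  have hND : ∀ D, IsMaxStab B V D → ∀ r ∈ R, D.map (MulAut.conj r).toMonoidHom = D → r ∈ B := by
    intro D hD r hr e
    have h1 : D ⊔ Z = B := by
      obtain ⟨B', h1, h2, h3⟩ : ∃ B' : Subgroup X, B' ≤ B ∧ B'.relIndex B = p ∧
          ¬ V ⊓ centralizer (D : Set X) ⊓ centralizer (B' : Set X) ≤ ⊥ := by
        by_contra hh
        push Not at hh
        refine hD.ne (eq_bot_iff.2 (Coprime.le_of_forall_hyperplane hB (fun b hb => he b (hBR hb))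
          (fun e => hZ1 (eq_bot_iff.2 (e ▸ hZB))) (le_normalizer_inf hBV
            (le_trans (b := centralizer (D : Set X)) (fun b hb d hd =>
              Coprime.mul_comm_of_mem hB (hD.le hd) hb) le_normalizer))
          (Coprime.coprime_mono hcB le_rfl inf_le_left) hh))
      obtain ⟨v, hv, hv1⟩ := SetLike.not_le_iff_exists.1 h3
      have h4 : B' ≤ D := (le_inf h1 fun b hb =>
        mem_centralizer_singleton_iff.2 ((mem_inf.1 hv).2 b hb)).trans
          (hD.max v (mem_inf.1 hv).1 fun e => hv1 (mem_bot.2 e))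
      refine (Coprime.eq_or_eq_of_relIndex_prime h2 (h4.trans le_sup_left)
        (sup_le hD.le hZB)).resolve_left fun e => hZ1 (eq_bot_iff.2 fun z hz => ?_)
      exact hDZ D hD z (h4 (e ▸ mem_sup_right hz)) hz
    refine hBC r hr ?_
    rw [← h1, centralizer_sup_eq]
    refine mem_inf.2 ⟨fun d hd => ?_, fun z hz => (hZc hz r hr).symm⟩
    refine (commutatorElement_eq_one_iff_commute.1 (hDZ D hD _ ?_
      (hcR r hr d (hBR (hD.le hd))))).eq.symm
    exact D.mul_mem (e ▸ conj_mem_map_conj hd) (D.inv_mem hd)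
  obtain ⟨D₀, hD₀⟩ := exists_isMaxStab B hV1
  have hex : ∀ D : Subgroup X, ∃ w ∈ V ⊓ centralizer (D : Set X),
      (w ≠ 1 ↔ IsMaxStab B V D ∧ D ≠ D₀) := fun D => by
    by_cases h : IsMaxStab B V D ∧ D ≠ D₀
    · obtain ⟨⟨v, hv⟩, hv1⟩ := (ne_bot_iff_exists_ne_one).1 h.1.ne
      exact ⟨v, hv, iff_of_true (fun e => hv1 (Subtype.ext e)) h⟩
    · exact ⟨1, one_mem _, iff_of_false (by simp) h⟩
  choose w hw hw' using hex
  obtain ⟨v, hv, h⟩ := exists_of_components hB hV hBV hcB w hw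
  refine ⟨v, hv, fun x hx hxv => ?_⟩
  have hxB : x ∈ B := by
    refine hND D₀ hD₀ x hx ?_
    by_contra hne
    have h1 := component_conj hV hBV hcB hw h (hRB hx) (hRV hx) hxv hD₀
    have h2 : w D₀ = 1 := by
      by_contra hh
      exact ((hw' D₀).1 hh).2 rfl
    refine (hw' _).2 ⟨hD₀.map_conj (hRB hx) (hRV hx), hne⟩ ?_
    rw [← h1, h2]; simp
  have hxD : ∀ s ∈ R, s ∉ B → x ∈ D₀.map (MulAut.conj s).toMonoidHom := fun s hs hsB => by
    have hD := hD₀.map_conj (hRB hs) (hRV hs)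
    have h1 := component_conj hV hBV hcB hw h (hRB hx) (hRV hx) hxv hD
    rw [map_conj_eq_of_mem_normalizer' (centralizer_le_normalizer _ fun d hd =>
      Coprime.mul_comm_of_mem hB (hD.le hd) hxB), mul_inv_eq_iff_eq_mul] at h1
    exact hD.max _ (hw _) ((hw' _).2 ⟨hD, fun e => hsB (hND D₀ hD₀ s hs e)⟩)
      (mem_inf.2 ⟨hxB, mem_centralizer_singleton_iff.2 h1⟩)
  obtain ⟨s₀, hs₀, hs₀B⟩ : ∃ s ∈ R, s ∉ B := by
    by_contra hh
    push Not at hh
    exact hab fun a ha b hb => Coprime.mul_comm_of_mem hB (hh b hb) (hh a ha)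
  refine hDZ _ (hD₀.map_conj (hRB hs₀) (hRV hs₀)) x (hxD s₀ hs₀ hs₀B)
    (hZd ▸ mem_inf.2 ⟨hx, fun s hs => ?_⟩)
  by_cases hsB : s ∈ B
  · exact Coprime.mul_comm_of_mem hB hsB hxB
  have hs2 : s * s ∉ B := fun hh => hsB (by
    obtain ⟨k, hk⟩ := hp.out.odd_of_ne_two hp2
    have : s = (s * s) ^ (k + 1) := by
      rw [← sq, ← pow_mul, show 2 * (k + 1) = p + 1 by omega, pow_succ, he s hs, one_mul]
    exact this ▸ pow_mem hh _)
  refine (commutatorElement_eq_one_iff_commute.1 (hDZ _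
    (hD₀.map_conj (hRB (R.mul_mem hs hs)) (hRV (R.mul_mem hs hs))) _ ?_ (hcR s hs x hx))).eq
  refine mul_mem ?_ (inv_mem (hxD _ (R.mul_mem hs hs) hs2))
  rw [← map_conj_map_conj]
  exact conj_mem_map_conj (hxD s hs hsB)

theorem commutator_of_symplectic (hp2 : p ≠ 2) {R : Type*} [Group R] [Finite R] (hR : IsPGroup p R)
    (hs : ∀ A : Subgroup R, A.Characteristic → IsMulCommutative A → IsCyclic A) (x y : R) :
    ⁅x, y⁆ ∈ center R ∧ ⁅x, y⁆ ^ p = 1 := by
  obtain ⟨E, h1, h2, h3⟩ := PGrp.exists_symplectic_decomposition hR hs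
  have h3 : IsCyclic (centralizer (E : Set R)) := h3.resolve_right fun h => hp2 h.1
  have hx : x ∈ E ⊔ centralizer (E : Set R) := h1 ▸ mem_top x
  have hy : y ∈ E ⊔ centralizer (E : Set R) := h1 ▸ mem_top y
  rw [mem_sup_of_le_normalizer' (centralizer_le_normalizer _)] at hx hy
  obtain ⟨e, he, c, hc, rfl⟩ := hx
  obtain ⟨e', he', c', hc', rfl⟩ := hy
  have a1 : Commute c c' := Coprime.mul_comm_of_mem h3.isMulCommutative hc hc'
  have a2 : Commute c e' := (hc e' he').symm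
  have a3 : Commute c' e := (hc' e he).symm
  have e1 : ⁅e * c, e' * c'⁆ = ⁅e, e'⁆ := by
    simp only [commutatorElement_def]
    calc e * c * (e' * c') * (e * c)⁻¹ * (e' * c')⁻¹
        = e * (c * (e' * c')) * c⁻¹ * e⁻¹ * c'⁻¹ * e'⁻¹ := by group
      _ = e * e' * (c' * e⁻¹) * c'⁻¹ * e'⁻¹ := by rw [(a2.mul_right a1).eq]; group
      _ = _ := by rw [a3.inv_right.eq]; group
  rw [e1]
  rcases h2 with rfl | h2
  · rw [mem_bot.1 he]; simp
  · have h4 := PGrp.IsExtraspecial.commutatorElement_mem h2 ⟨e, he⟩ ⟨e', he'⟩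
    refine ⟨PGrp.inf_centralizer_le_center h1 (mem_inf.2 ⟨commutator_le_self E
      (commutator_mem_commutator he he'), PGrp.mem_center_subgroup_iff.1 h4⟩), ?_⟩
    exact congrArg Subtype.val (PGrp.IsExtraspecial.pow_eq_one_of_mem h2 h4)

theorem exists_not_commute_conj_of_faithful (hp2 : p ≠ 2) {V H R₀ : Subgroup X} {a : X}
    (hV : IsMulCommutative V) (hcop : (Nat.card V).Coprime p) (hHV : H ≤ normalizer (V : Set X))
    (hf : H ⊓ centralizer (V : Set X) = ⊥) (hRH : R₀ ≤ H) (hHR : H ≤ normalizer (R₀ : Set X))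
    (hR : IsPGroup p R₀) (haR : a ∈ R₀) (ha1 : a ≠ 1) (hap : a ^ p = 1)
    (ih : ∀ V' H' R' : Subgroup X, V' < V → H' ≤ normalizer (V' : Set X) → R' ≤ H' →
      H' ≤ normalizer (R' : Set X) → IsPGroup p R' → a ∈ R' → a ∉ centralizer (V' : Set X) →
      ∃ v ∈ V', ∀ h ∈ H', ¬ Commute (h * a * h⁻¹) v) :
    ∃ v ∈ V, ∀ h ∈ H, ¬ Commute (h * a * h⁻¹) v := by
  classical
  obtain ⟨R, hRd⟩ : ∃ R, R = closure {x | ∃ h ∈ H, x = h * a * h⁻¹} := ⟨_, rfl⟩
  have hmem : ∀ h ∈ H, h * a * h⁻¹ ∈ R := fun h hh => hRd ▸ Subgroup.subset_closure ⟨h, hh, rfl⟩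
  have hRle : ∀ {K : Subgroup X}, (∀ h ∈ H, h * a * h⁻¹ ∈ K) → R ≤ K := fun hK =>
    hRd ▸ (closure_le _).2 (by rintro _ ⟨h, hh, rfl⟩; exact hK h hh)
  have hRR : R ≤ R₀ := hRle fun h hh => Coprime.conj_mem_of_le_normalizer hHR hh haR
  replace hR := hR.to_le hRR
  replace hRH := hRR.trans hRH
  replace haR : a ∈ R := by simpa using hmem 1 H.one_mem
  replace hHR : H ≤ normalizer (R : Set X) := fun k hk => mem_normalizer_of_map_conj_le (by
    rw [map_le_iff_le_comap]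
    refine hRle fun h hh => ?_
    have := hmem _ (H.mul_mem hk hh)
    simpa [mul_assoc] using this)
  have hRV := hRH.trans hHV
  have hc : (Nat.card R).Coprime (Nat.card V) := (Coprime.coprime_card_of_isPGroup hcop hR).symm
  have haV : a ∉ centralizer (V : Set X) := fun h =>
    ha1 (mem_bot.1 (hf ▸ mem_inf.2 ⟨hRH haR, h⟩))
  have hV1 : V ≠ ⊥ := fun e => haV (by rw [e]; exact le_centralizer_iff.1 bot_le (mem_top a))
  by_cases hU : ∃ U < V, H ≤ normalizer (U : Set X) ∧ a ∉ centralizer (U : Set X)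
  · obtain ⟨U, h1, h2, h3⟩ := hU
    obtain ⟨v, hv, h⟩ := ih U H R h1 h2 hRH hHR hR haR h3
    exact ⟨v, h1.le hv, h⟩
  push Not at hU
  have hU' : ∀ U < V, H ≤ normalizer (U : Set X) → R ≤ centralizer (U : Set X) := fun U h1 h2 =>
    hRle fun h hh => Coprime.conj_mem_of_le_normalizer (le_normalizer_centralizer h2) hh (hU U h1 h2)
  have hirr : ∀ U ≤ V, H ≤ normalizer (U : Set X) → U ≠ ⊥ → U = V := fun U h1 h2 h3 => by
    by_contra hne
    have h4 : ⁅V, R⁆ = V := by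
      by_contra hh
      have := hU' _ (lt_of_le_of_ne (Coprime.commutator_le_of_le_normalizer hRV) hh)
        (le_normalizer_commutator hHV hHR)
      have := Coprime.commutator_eq_bot_of_commutator_commutator_eq_bot hRV hc
        (Coprime.commutator_eq_bot_iff_le_centralizer'.2 this)
      exact haV (Coprime.commutator_eq_bot_iff_le_centralizer'.1 this haR)
    have h5 := Coprime.centralizer_inf_commutator_eq_bot hRV hc hV
    rw [h4] at h5
    exact h3 (eq_bot_iff.2 (h5 ▸ le_inf (le_inf h1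
      (le_centralizer_iff.1 (hU' U (lt_of_le_of_ne h1 hne) h2))) h1))
  by_cases hA : ∃ B ≤ R, IsMulCommutative B ∧ H ≤ normalizer (B : Set X) ∧
      ∃ D, IsMaxStab B V D ∧ D ≠ ⊥
  · obtain ⟨B, hBR, hB, hHB, D₀, hD₀, hD0⟩ := hA
    have hBV := hBR.trans hRV
    have hcB := Coprime.coprime_mono hc hBR le_rfl
    by_cases hi : ∃ h ∈ H, a ∉ normalizer ((D₀.map (MulAut.conj h).toMonoidHom : Subgroup X) : Set X)
    · obtain ⟨h₀, hh₀, hna⟩ := hi
      obtain ⟨J, hJ1, hJ2⟩ := exists_regular_subset (Ω := Subgroup X) hp2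
        (R.map (MulAut.conj : X →* MulAut X)) (hR.map _)
        {D | ∃ h ∈ H, D = D₀.map (MulAut.conj h).toMonoidHom} (Set.toFinite _) (by
          rintro _ ⟨r, hr, rfl⟩ _ ⟨h, hh, rfl⟩
          exact ⟨r * h, H.mul_mem (hRH hr) hh, by rw [smul_eq_map_conj, map_conj_map_conj]⟩)
      have hJ : ∀ D ∈ J, IsMaxStab B V D := fun D hD => by
        obtain ⟨h, hh, rfl⟩ := hJ1 hD
        exact hD₀.map_conj (hHB hh) (hHV hh)
      have hex : ∀ D : Subgroup X, ∃ w ∈ V ⊓ centralizer (D : Set X), (w ≠ 1 ↔ D ∈ J) := fun D => by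
        by_cases h : D ∈ J
        · obtain ⟨⟨v, hv⟩, hv1⟩ := (ne_bot_iff_exists_ne_one).1 (hJ D h).ne
          exact ⟨v, hv, iff_of_true (fun e => hv1 (Subtype.ext e)) h⟩
        · exact ⟨1, one_mem _, iff_of_false (by simp) h⟩
      choose w hw hw' using hex
      obtain ⟨v, hv, h⟩ := exists_of_components hB hV hBV hcB w hw
      refine ⟨v, hv, fun k hk hxv => hna (mem_normalizer_of_map_conj_le (le_of_eq ?_))⟩
      have hx := hmem k hk
      have := hJ2 _ ⟨_, hx, rfl⟩ (fun D hD => by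
        rw [smul_eq_map_conj, ← hw', ← component_conj hV hBV hcB hw h (hHB (hRH hx)) (hRV hx) hxv
          (hJ D hD)]
        exact fun e => (hw' D).2 hD (conj_eq_one_iff.1 e)) _ ⟨k * h₀, H.mul_mem hk hh₀, rfl⟩
      rw [smul_eq_map_conj] at this
      have h2 := congrArg (map (MulAut.conj k⁻¹).toMonoidHom) this
      simp only [map_conj_map_conj] at h2 ⊢
      simpa [mul_assoc] using h2
    push Not at hi
    obtain ⟨h₀, hh₀, hna⟩ : ∃ h ∈ H, a ∉ centralizer ((V ⊓ centralizer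
        ((D₀.map (MulAut.conj h).toMonoidHom : Subgroup X) : Set X) : Subgroup X) : Set X) := by
      by_contra hh
      push Not at hh
      have h1 := hirr (⨆ h ∈ H, V ⊓ centralizer
        ((D₀.map (MulAut.conj h).toMonoidHom : Subgroup X) : Set X)) (iSup₂_le fun _ _ => inf_le_left)
        (fun k hk => mem_normalizer_of_map_conj_le (by
          rw [map_le_iff_le_comap]
          refine iSup₂_le fun h hh v hv => ?_
          have := conj_mem_inf_centralizer (hHV hk) hv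
          rw [map_conj_map_conj] at this
          exact le_iSup₂_of_le (f := fun h (_ : h ∈ H) => V ⊓ centralizer
            ((D₀.map (MulAut.conj h).toMonoidHom : Subgroup X) : Set X)) (k * h) (H.mul_mem hk hh)
            le_rfl this))
        (fun e => hD₀.ne (eq_bot_iff.2 (e ▸ le_iSup₂_of_le 1 H.one_mem (by rw [map_conj_one]))))
      refine haV (zpowers_le.1 (le_centralizer_iff.1 ?_))
      rw [← h1]
      exact iSup₂_le fun h hh' => le_centralizer_iff.1 (zpowers_le.2 (hh h hh'))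
    obtain ⟨D₁, hD₁d⟩ : ∃ D, D = D₀.map (MulAut.conj h₀).toMonoidHom := ⟨_, rfl⟩
    have hD₁ : IsMaxStab B V D₁ := hD₁d ▸ hD₀.map_conj (hHB hh₀) (hHV hh₀)
    have hRD : ∀ k ∈ H, R ≤ normalizer ((D₁.map (MulAut.conj k).toMonoidHom : Subgroup X) : Set X) :=
      fun k hk => hRle fun h hh => mem_normalizer_of_map_conj_le (le_of_eq (by
        have := map_conj_eq_of_mem_normalizer' (hi _ (H.mul_mem (H.mul_mem (H.inv_mem hh) hk) hh₀))
        have h2 := congrArg (map (MulAut.conj h).toMonoidHom) this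
        simp only [map_conj_map_conj, hD₁d] at h2 ⊢
        simpa [mul_assoc] using h2))
    rw [← hD₁d] at hna
    have hlt : V ⊓ centralizer (D₁ : Set X) < V := lt_of_le_of_ne inf_le_left fun e => hD0 (by
      have : D₁ = ⊥ := eq_bot_iff.2 (hf ▸ le_inf ((hD₁.le.trans hBR).trans hRH)
        (le_centralizer_iff.1 (inf_eq_left.1 e)))
      rwa [hD₁d, map_eq_bot_iff_of_injective _ (MulAut.conj h₀).injective] at this)
    obtain ⟨v₁, hv₁, h₁⟩ := ih _ (H ⊓ normalizer (D₁ : Set X)) R hlt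
      (le_normalizer_inf (inf_le_left.trans hHV) (le_normalizer_centralizer inf_le_right))
      (le_inf hRH (by simpa [map_conj_one] using hRD 1 H.one_mem)) (inf_le_left.trans hHR) hR haR hna
    have hex : ∀ D : Subgroup X, ∃ w ∈ V ⊓ centralizer (D : Set X),
        ∀ k ∈ H, D = D₁.map (MulAut.conj k).toMonoidHom →
          ∃ h ∈ H, D = D₁.map (MulAut.conj h).toMonoidHom ∧ w = h * v₁ * h⁻¹ := fun D => by
      by_cases h : ∃ k ∈ H, D = D₁.map (MulAut.conj k).toMonoidHom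
      · obtain ⟨k, hk, rfl⟩ := h
        exact ⟨_, conj_mem_inf_centralizer (hHV hk) hv₁, fun _ _ _ => ⟨k, hk, rfl, rfl⟩⟩
      · exact ⟨1, one_mem _, fun k hk e => (h ⟨k, hk, e⟩).elim⟩
    choose w hw hw' using hex
    obtain ⟨v, hv, h⟩ := exists_of_components hB hV hBV hcB w hw
    refine ⟨v, hv, fun k hk hxv => ?_⟩
    have hx := hmem k hk
    have h2 := component_conj hV hBV hcB hw h (hHB (hRH hx)) (hRV hx) hxv
      (hD₁.map_conj (hHB hk) (hHV hk))
    rw [map_conj_eq_of_mem_normalizer' (hRD k hk hx)] at h2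
    obtain ⟨l, hl, e1, e2⟩ := hw' _ k hk rfl
    refine h₁ (l⁻¹ * k) (mem_inf.2 ⟨H.mul_mem (H.inv_mem hl) hk,
      mem_normalizer_of_map_conj_le (le_of_eq ?_)⟩) ?_
    · rw [← map_conj_map_conj, e1, map_conj_map_conj, inv_mul_cancel, map_conj_one]
    · rw [e2] at h2
      calc l⁻¹ * k * a * (l⁻¹ * k)⁻¹ * v₁
          = l⁻¹ * (k * a * k⁻¹ * (l * v₁ * l⁻¹) * (k * a * k⁻¹)⁻¹) * (k * a * k⁻¹) * l := by group
        _ = _ := by rw [h2]; group
  push Not at hA
  have hsemi : ∀ B ≤ R, IsMulCommutative B → H ≤ normalizer (B : Set X) →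
      ∀ v ∈ V, v ≠ 1 → B ⊓ centralizer {v} = ⊥ := fun B h1 h2 h3 v hv hv1 => by
    obtain ⟨D, hD⟩ := exists_isMaxStab B hV1
    have := hA B h1 h2 h3 D hD
    subst this
    exact eq_bot_iff.2 (hD.max v (mem_inf.2 ⟨hv, le_centralizer_iff.1 bot_le (mem_top v)⟩) hv1)
  have hcm := commutator_of_symplectic hp2 hR fun A hA1 hA2 => by
    by_contra hnc
    have h1 : A.map R.subtype ≤ R := map_subtype_le _
    obtain ⟨b, hb, hb1, hne⟩ := Coprime.exists_inf_centralizer_ne_bot (A := A.map R.subtype)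
      inferInstance (fun h => hnc ((equivMapOfInjective A R.subtype R.subtype_injective).isCyclic.2 h))
      (h1.trans hRV) (Coprime.coprime_mono hc h1 le_rfl) hV1
    obtain ⟨⟨v, hv⟩, hv1⟩ := (ne_bot_iff_exists_ne_one).1 hne
    refine hb1 (mem_bot.1 (hsemi _ h1 inferInstance
      (hHR.trans (normalizer_le_normalizer_map_of_characteristic R A)) v (mem_inf.1 hv).1
      (fun e => hv1 (Subtype.ext e)) ▸ mem_inf.2 ⟨hb, ?_⟩))
    exact mem_centralizer_singleton_iff.2 (mem_centralizer_singleton_iff.1 (mem_inf.1 hv).2).symm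
  have hcm1 : ∀ x ∈ R, ∀ y ∈ R, ⁅x, y⁆ ∈ centralizer (R : Set X) := fun x hx y hy =>
    PGrp.mem_center_subgroup_iff.1 (hcm ⟨x, hx⟩ ⟨y, hy⟩).1
  have he : ∀ x ∈ R, x ^ p = 1 := fun x hx => by
    have : x ∈ R ∧ x ^ p = 1 := by
      rw [hRd] at hx
      induction hx using closure_induction with
      | mem x hx =>
        obtain ⟨h, hh, rfl⟩ := hx
        exact ⟨hmem h hh, by rw [conj_pow, hap]; simp⟩
      | one => exact ⟨R.one_mem, one_pow _⟩
      | mul x y _ _ hx hy =>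
        refine ⟨R.mul_mem hx.1 hy.1, ?_⟩
        rw [PGrp.mul_pow_of_odd (hp.out.odd_of_ne_two hp2) (hcm1 y hy.1 x hx.1 x hx.1).symm
          (hcm1 y hy.1 x hx.1 y hy.1).symm (congrArg Subtype.val (hcm ⟨y, hy.1⟩ ⟨x, hx.1⟩).2),
          hx.2, hy.2, one_mul]
      | inv x _ hx => exact ⟨R.inv_mem hx.1, by rw [inv_pow, hx.2, inv_one]⟩
    exact this.2
  obtain ⟨v, hv, h⟩ := exists_regular_of_class_two hp2 hV hV1 hRV hc he hcm1
    (hsemi _ inf_le_left (isMulCommutative_of_forall fun x hx y hy =>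
      (mem_inf.1 hy).2 x (mem_inf.1 hx).1) (le_normalizer_inf hHR (le_normalizer_centralizer hHR)))
  exact ⟨v, hv, fun k hk hxv => ha1 (conj_eq_one_iff.1 (h _ (hmem k hk) hxv))⟩

/-- An abelian `p'`-group `V` (`p` odd) is not the union of the fixed points of the `H`-conjugates of
an element `a` of a normal `p`-subgroup of `H` unless `a` centralizes `V`. -/
theorem exists_not_commute_conj (hp2 : p ≠ 2) (n : ℕ) :
    ∀ (X : Type u) [Group X] [Finite X] (V H R : Subgroup X) (a : X), Nat.card V = n →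
      IsMulCommutative V → (Nat.card V).Coprime p → H ≤ normalizer (V : Set X) → R ≤ H →
      H ≤ normalizer (R : Set X) → IsPGroup p R → a ∈ R → a ∉ centralizer (V : Set X) →
      ∃ v ∈ V, ∀ h ∈ H, ¬ Commute (h * a * h⁻¹) v := by
  induction n using Nat.strong_induction_on with
  | _ n ih =>
  intro X _ _ V H R a hn hV hcop hHV hRH hHR hR haR ha
  let Y := V ⋊[MonoidHom.id (MulAut V)] MulAut V
  have : Finite Y := Finite.of_equiv _ SemidirectProduct.equivProd.symm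
  let ι : V →* Y := SemidirectProduct.inl
  let κ : H →* Y := SemidirectProduct.inr.comp (Coprime.conjHom hHV)
  have hι : Function.Injective ι := SemidirectProduct.inl_injective
  have hconj : ∀ x w, κ x * ι w * (κ x)⁻¹ = ι (Coprime.conjHom hHV x w) := fun x w => by
    have := SemidirectProduct.inl_aut (φ := MonoidHom.id (MulAut V)) (Coprime.conjHom hHV x) w
    rw [map_inv] at this
    exact this.symm
  have hcomm : ∀ (x : H) (w : V), κ x * ι w = ι w * κ x ↔ (x : X) * w = w * x := fun x w => by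
    rw [← mul_inv_eq_iff_eq_mul, hconj, hι.eq_iff, Subtype.ext_iff, ← mul_inv_eq_iff_eq_mul]
    rfl
  have hker : ∀ x : H, κ x = 1 ↔ (x : X) ∈ centralizer (V : Set X) := fun x => by
    rw [← Coprime.mem_ker_conjHom hHV, MonoidHom.mem_ker]
    exact map_eq_one_iff _ SemidirectProduct.inr_injective
  have hf : κ.range ⊓ centralizer (ι.range : Set Y) = ⊥ := by
    rw [eq_bot_iff]
    intro g hg
    obtain ⟨⟨x, rfl⟩, hg⟩ := mem_inf.1 hg
    exact (hker x).2 fun w hw => ((hcomm x ⟨w, hw⟩).1 (hg _ ⟨⟨w, hw⟩, rfl⟩).symm).symm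
  have hcard : Nat.card ι.range = Nat.card V := (Nat.card_congr (MonoidHom.ofInjective hι).toEquiv).symm
  have hR' : IsPGroup p ((R.subgroupOf H).map κ) := (hR.comap_of_injective H.subtype
    H.subtype_injective).map κ
  have hm : κ ⟨a, hRH haR⟩ ∈ (R.subgroupOf H).map κ := ⟨_, haR, rfl⟩
  obtain ⟨j, hj1, hj2⟩ := PGrp.exists_pow_not_mem_pow_mem hR' (U := ⊥) (g := ⟨_, hm⟩)
    fun e => ha ((hker _).1 (congrArg Subtype.val (mem_bot.1 e)))
  have hVc : IsMulCommutative ι.range := by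
    rw [MonoidHom.range_eq_map]; infer_instance
  obtain ⟨_, ⟨v, rfl⟩, h⟩ := exists_not_commute_conj_of_faithful hp2 (V := ι.range) (H := κ.range)
    (a := κ ⟨a, hRH haR⟩ ^ p ^ j) hVc (hcard ▸ hcop)
    (by
      rintro _ ⟨x, rfl⟩
      refine mem_normalizer_of_map_conj_le ?_
      rintro _ ⟨_, ⟨w, rfl⟩, rfl⟩
      exact ⟨_, (hconj x w).symm⟩) hf (map_le_range κ _)
    (by
      rintro _ ⟨x, rfl⟩
      refine mem_normalizer_of_map_conj_le ?_
      rintro _ ⟨_, ⟨r, hr, rfl⟩, rfl⟩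
      exact ⟨x * r * x⁻¹, Coprime.conj_mem_of_le_normalizer hHR x.2 hr, by simp⟩)
    hR' (pow_mem hm _) (fun e => hj1 (mem_bot.2 (Subtype.ext e)))
    (congrArg Subtype.val (mem_bot.1 hj2))
    fun V' H' R' h1 => ih _ (hn ▸ hcard ▸ card_lt_card_of_lt h1) Y V' H' R' _ rfl
      (isMulCommutative_of_le hVc h1.le)
      ((hcard ▸ hcop : (Nat.card ι.range).Coprime p).coprime_dvd_left (card_dvd_of_le h1.le))
  refine ⟨v, v.2, fun k hk hc => h _ ⟨⟨k, hk⟩, rfl⟩ ?_⟩
  rw [← conj_pow, ← map_inv, ← map_mul, ← map_mul]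
  exact Commute.pow_left ((hcomm _ v).2 hc.eq) _

end Cfsg.Agent.Core
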