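import Cfsg.Agent.Lib.OO.PF1

/-! # Virtual characters of norm three and products of involutions -/

set_option autoImplicit false
set_option linter.unusedSectionVars false

namespace Cfsg.Agent.Hay

open Subgroup Cfsg.Agent.Coprime Cfsg.Agent.OO
open scoped Pointwise ComplexConjugate

variable {G : Type*} [Group G] [Finite G] {H : Subgroup G} {χ φ a b : G → ℂ} {x y i : G}

theorem irr_conj_sum (hχ : IsIrr H χ) (hx : x ∈ H) (hy : y ∈ H) :
    χ 1 * ∑ k ∈ elts (H : Set G), χ (k * x * k⁻¹ * y) = ♯H * χ x * χ y := by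
  classical
  have := Fintype.ofFinite H
  let f : H → ℂ := fun g => ∑ k : H, if k * ⟨x, hx⟩ * k⁻¹ = g then 1 else 0
  have hf : IsClassFunction H f := by
    intro g h
    refine (Fintype.sum_equiv (Equiv.mulLeft h) _ _ fun k => ?_).symm
    refine if_congr ?_ rfl rfl
    simp only [Equiv.coe_mulLeft]
    constructor
    · rintro rfl; group
    · intro e
      have : k * ⟨x, hx⟩ * k⁻¹ = h⁻¹ * (h * k * ⟨x, hx⟩ * (h * k)⁻¹) * h := by group
      rw [this, e]; group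
  have key : ∀ F : H → ℂ, ∑ g, f g * F g = ∑ k : H, F (k * ⟨x, hx⟩ * k⁻¹) := by
    intro F
    simp only [f, Finset.sum_mul]
    rw [Finset.sum_comm]
    simp
  have h1 := Char.irr_convolution hχ.coe hf ⟨y, hy⟩
  rw [key, key] at h1
  rw [sum_elts_subtype]
  refine h1.trans ?_
  have h2 : ∀ k : H, χ ((k * ⟨x, hx⟩ * k⁻¹ : H) : G) = χ x := fun k => cfunJ hχ.mem_CF k.2 x
  simp only [h2, Finset.sum_const, Finset.card_univ, nsmul_eq_mul, Nat.card_eq_fintype_card]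

/-- the sum of `φ` over the products of two conjugates of `i` -/
noncomputable def pairSum (φ : G → ℂ) (i : G) : ℂ :=
  ∑ h ∈ elts ((⊤ : Subgroup G) : Set G), ∑ g ∈ elts ((⊤ : Subgroup G) : Set G),
    φ (g * i * g⁻¹ * (h * i * h⁻¹))

theorem pairSum_dirr (ha : IsDirr ⊤ a) (i : G) :
    a 1 * pairSum a i = (Nat.card G : ℂ) ^ 2 * a i ^ 2 := by
  obtain ⟨e, he, χ, hχ, rfl⟩ := ha.exists_sign
  have h1 : χ 1 * pairSum χ i = (Nat.card G : ℂ) ^ 2 * χ i ^ 2 := by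
    rw [pairSum, Finset.mul_sum, Finset.sum_congr rfl fun h _ =>
      (irr_conj_sum hχ (mem_top i) (mem_top _)).trans (by rw [cfunJ hχ.mem_CF (mem_top h)]),
      sum_elts_const, card_top, nsmul_eq_mul]
    ring
  have h2 : pairSum (e • χ) i = e * pairSum χ i := by simp [pairSum, Finset.mul_sum]
  rw [h2, Pi.smul_apply, Pi.smul_apply, smul_eq_mul, smul_eq_mul]
  linear_combination e ^ 2 * h1

theorem exists_int_invol (ha : a ∈ ZIrr (⊤ : Subgroup G)) (hi : orderOf i = 2) :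
    ∃ n : ℤ, a 1 + a i = 2 * n := by
  classical
  obtain ⟨n, hn⟩ := Cint_cfdot_vchar (cfRes_vchar (le_top : zpowers i ≤ ⊤) ha) (cf1_vchar _)
  have hi1 : (1 : G) ≠ i := fun e => by simp [← e] at hi
  have h1 : elts (zpowers i : Set G) = {1, i} := by
    symm
    refine Finset.eq_of_subset_of_card_le (fun x hx => ?_) ?_
    · rcases Finset.mem_insert.1 hx with rfl | hx
      · exact mem_elts.2 (one_mem _)
      · exact mem_elts.2 (Finset.mem_singleton.1 hx ▸ mem_zpowers i)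
    · rw [card_elts, Nat.card_zpowers, hi, Finset.card_pair hi1]
  rw [cfdot_cf1r, h1, Finset.sum_pair hi1, cfResE _ (one_mem _), cfResE _ (mem_zpowers i),
    Nat.card_zpowers, hi] at hn
  exact ⟨n, by rw [← hn]; push_cast; ring⟩

theorem norm_le_dirr (ha : IsDirr ⊤ a) (x : G) : ‖a x‖ ≤ ‖a 1‖ := by
  rcases ha with h | h
  · exact char1_ge_norm h.isChar x
  · simpa using char1_ge_norm h.isChar x

theorem mem_cfker_dirr (ha : IsDirr ⊤ a) (h : a x = a 1) : x ∈ cfker ⊤ a := by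
  rcases ha with h1 | h1
  · exact (cfkerEchar h1.isChar).2 ⟨mem_top _, h⟩
  · have := (cfkerEchar h1.isChar).2 ⟨mem_top x, by simp [h]⟩
    rwa [← neg_one_smul ℂ a, cfker_smul (by norm_num)] at this

theorem dvd_of_dirr (ha : IsDirr ⊤ a) (hφ : φ ∈ CF (⊤ : Subgroup G)) (h1 : ⟪φ, a⟫[⊤] = 1)
    (h3 : ∀ x, φ x = 0 ∨ φ x = 3) {y : ℤ} (hy : a 1 = y) : 3 * y ∣ Nat.card G := by
  classical
  have := Fintype.ofFinite (⊤ : Subgroup G)
  obtain ⟨e, he, χ, hχ, rfl⟩ := ha.exists_sign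
  have hc : IsClassFunction (⊤ : Subgroup G) fun x => φ x / 3 := fun g h => by
    simp only [coe_mul, coe_inv]; rw [cfunJ hφ h.2]
  have h4 := Char.isIntegral_central hχ.star.coe hc fun g => by
    rcases h3 g with e | e <;> rw [e] <;> norm_num
    exacts [isIntegral_zero, isIntegral_one]
  have he2 : e * e = 1 := by rcases he with rfl | rfl <;> norm_num
  have he3 : conj e = e := by rcases he with rfl | rfl <;> simp
  have hy0 : (y : ℂ) ≠ 0 := hy ▸ ha.one_ne_zero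
  rw [cfdotZr, he3, cfdotE, sum_elts_subtype, card_top] at h1
  have h5 : χ 1 = e * y := by rw [← hy, Pi.smul_apply, smul_eq_mul, ← mul_assoc, he2, one_mul]
  have h6 : (Nat.card G : ℂ) ≠ 0 := Nat.cast_ne_zero.2 Nat.card_pos.ne'
  have h7 : ∑ g : (⊤ : Subgroup G), φ g / 3 * (star χ) g = e * Nat.card G / 3 := by
    have : ∑ g : (⊤ : Subgroup G), φ g * conj (χ g) = e * Nat.card G := by
      field_simp at h1
      rw [← h1, ← mul_assoc, he2, one_mul]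
    rw [← this, Finset.sum_div]
    exact Finset.sum_congr rfl fun g _ => by rw [cfConjCE]; ring
  refine int_dvd_of_Aint_div (by exact_mod_cast mul_ne_zero three_ne_zero hy0) ?_
  convert h4 using 1
  rw [h7, coe_one, cfConjCE, h5, map_mul, he3, map_intCast]
  have he0 : e ≠ 0 := left_ne_zero_of_mul_eq_one he2
  push_cast
  field_simp

theorem bound_dirr (ha : IsDirr ⊤ a) (hφ : φ ∈ CF (⊤ : Subgroup G)) (h1 : ⟪φ, a⟫[⊤] = 1)
    {C : Subgroup G} (hC : der C ≤ cfker ⊤ φ) (hi : C.index ≤ 2) {y : ℤ} (hy : a 1 = y) :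
    |y| ≤ 2 := by
  obtain ⟨e, he, χ, hχ, rfl⟩ := ha.exists_sign
  have h2 := irr1_bound_quo hχ (cfker_constt' hφ hχ fun e0 => by
    rw [cfdotZr, e0] at h1; simp at h1) le_rfl le_top hC
  rw [relIndex_self, relIndex_top_right, ← hχ.isChar.norm_one] at h2
  have h3 : ‖(y : ℂ)‖ = ‖χ 1‖ := by
    rw [← hy, Pi.smul_apply, norm_smul]
    rcases he with rfl | rfl <;> simp
  rw [Complex.norm_intCast] at h3
  have h4 : (C.index : ℝ) ≤ 2 := by exact_mod_cast hi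
  have : |(y : ℝ)| ≤ 2 := by rw [h3]; simpa using h2.trans (by simpa using h4)
  exact_mod_cast this

theorem tri (hφ : φ ∈ ZIrr (⊤ : Subgroup G)) (h3 : ∀ x, φ x = 0 ∨ φ x = 3)
    (hd : ⟪φ, cf1 ⊤⟫[⊤] = 1) (h1 : φ 1 = 0) :
    ∃ y : ℤ, y * (y + 1) ≠ 0 ∧ 3 * y ∣ Nat.card G ∧ 3 * (y + 1) ∣ Nat.card G ∧
      (∀ C : Subgroup G, der C ≤ cfker ⊤ φ → C.index ≤ 2 → |y| ≤ 2 ∧ |y + 1| ≤ 2) ∧
      ∀ i : G, orderOf i = 2 → φ i = 0 → ∃ Y : ℤ, 2 ∣ y + Y ∧ |Y| ≤ |y| ∧ |Y + 1| ≤ |y + 1| ∧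
        y * (y + 1) * pairSum φ i = (Nat.card G : ℂ) ^ 2 * (y - Y) ^ 2 ∧
        (Y = y → i ∈ cfker ⊤ φ) := by
  classical
  have hφc := vchar_mem_CF hφ
  have hn : ⟪φ, φ⟫[⊤] = 3 := by
    rw [cfdotE, Finset.sum_congr rfl (g := fun x => 3 * (φ x * conj (cf1 ⊤ x))) fun x _ => by
      rcases h3 x with e | e <;> simp [e, cf1E (mem_top x), map_ofNat], ← Finset.mul_sum,
      mul_left_comm, ← cfdotE, hd, mul_one]
  have hψ : φ - cf1 ⊤ ∈ ZIrr (⊤ : Subgroup G) := sub_mem hφ (cf1_vchar _)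
  have hd' : ⟪cf1 ⊤, φ⟫[(⊤ : Subgroup G)] = 1 := by rw [cfdotC, hd, map_one]
  have hn2 : cfnorm ⊤ (φ - cf1 ⊤) = (2 : ℝ) := cfnorm_eq_of_cfdot (by
    rw [cfdotBl, cfdotBr, cfdotBr, hn, hd, hd', cfdot_cf1]; norm_num)
  obtain ⟨S, hS, hSd, hc, hs⟩ := vchar_small_norm hψ (by rw [hn2]; norm_num)
  rw [hn2] at hc
  obtain ⟨a, b, hab, rfl⟩ := Finset.card_eq_two.1 (by exact_mod_cast hc : S.card = 2)
  rw [Finset.sum_pair hab] at hs
  have ha := hSd a (by simp)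
  have hb := hSd b (by simp)
  have hab0 : ⟪a, b⟫[⊤] = 0 := hS.2 a (by simp) b (by simp) hab
  have hone := (isIrr_cf1 (⊤ : Subgroup G)).isDirr
  have h0 : ⟪a, cf1 ⊤⟫[⊤] + ⟪b, cf1 ⊤⟫[⊤] = 0 := by
    rw [← cfdotDl, ← hs, cfdotBl, hd, cfdot_cf1, sub_self]
  have ha1 : ⟪a, cf1 ⊤⟫[⊤] = 0 := by
    by_contra e
    have e' : ⟪b, cf1 ⊤⟫[⊤] ≠ 0 := fun e' => e (by rwa [e', add_zero] at h0)
    rcases ha.eq_or_eq_neg hone e with rfl | rfl <;> rcases hb.eq_or_eq_neg hone e' with rfl | rfl <;>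
      simp [cfdotNl, cfdotNr, cfdot_cf1] at hab0
  have hb1 : ⟪b, cf1 ⊤⟫[⊤] = 0 := by rwa [ha1, zero_add] at h0
  have hφe : φ = cf1 ⊤ + a + b := by rw [add_assoc, ← hs]; abel
  have hφa : ⟪φ, a⟫[⊤] = 1 := by
    rw [hφe, cfdotDl, cfdotDl, cfdot_symm0 ha1, ha.cfdot_self, cfdot_symm0 hab0]; simp
  have hφb : ⟪φ, b⟫[⊤] = 1 := by
    rw [hφe, cfdotDl, cfdotDl, cfdot_symm0 hb1, hb.cfdot_self, hab0]; simp
  obtain ⟨y, hy⟩ := Cint_vchar1 ha.vchar
  have hval : ∀ x, φ x = 0 → b x = -(a x + 1) := fun x hx => by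
    rw [hφe, Pi.add_apply, Pi.add_apply, cf1E (mem_top x)] at hx
    linear_combination hx
  have hy' : b 1 = (-(y + 1) : ℤ) := by rw [hval 1 h1, hy]; push_cast; ring
  have hy0 : y ≠ 0 := by exact_mod_cast hy ▸ ha.one_ne_zero
  have hy1 : y + 1 ≠ 0 := by
    have : -(y + 1) ≠ 0 := by exact_mod_cast hy' ▸ hb.one_ne_zero
    omega
  refine ⟨y, mul_ne_zero hy0 hy1, dvd_of_dirr ha hφc hφa h3 hy, ?_, fun C h4 h5 =>
    ⟨bound_dirr ha hφc hφa h4 h5 hy, abs_neg (y + 1) ▸ bound_dirr hb hφc hφb h4 h5 hy'⟩,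
    fun i hi h4 => ?_⟩
  · have := dvd_of_dirr hb hφc hφb h3 hy'
    rwa [mul_neg, Int.neg_dvd] at this
  obtain ⟨n, hn⟩ := exists_int_invol ha.vchar hi
  have hY : a i = (2 * n - y : ℤ) := by rw [hy] at hn; push_cast; linear_combination hn
  have hY' : b i = (-(2 * n - y + 1) : ℤ) := by rw [hval i h4, hY]; push_cast; ring
  refine ⟨2 * n - y, ⟨n, by ring⟩, ?_, ?_, ?_, fun e => ?_⟩
  · have := norm_le_dirr ha i
    rw [hY, hy, Complex.norm_intCast, Complex.norm_intCast] at this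
    exact_mod_cast this
  · have := norm_le_dirr hb i
    rw [hY', hy', Complex.norm_intCast, Complex.norm_intCast] at this
    rw [← abs_neg, ← abs_neg (y + 1)]
    exact_mod_cast this
  · have e1 := pairSum_dirr ha i
    have e2 := pairSum_dirr hb i
    have e3 := pairSum_dirr hone i
    have e4 : pairSum φ i = pairSum (cf1 ⊤) i + pairSum a i + pairSum b i := by
      simp only [pairSum, hφe, Pi.add_apply, Finset.sum_add_distrib]
    rw [hy, hY] at e1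
    rw [hy', hY'] at e2
    rw [cf1E (mem_top _), cf1E (mem_top _)] at e3
    rw [e4]
    push_cast at e1 e2 ⊢
    linear_combination (y * (y + 1) : ℂ) * e3 + (y + 1 : ℂ) * e1 - (y : ℂ) * e2
  · rw [hφe]
    refine cfker_add _ _ ⟨cfker_add _ _ ⟨mem_cfker_dirr hone ?_, mem_cfker_dirr ha ?_⟩,
      mem_cfker_dirr hb ?_⟩
    · rw [cf1E (mem_top _), cf1E (mem_top _)]
    · rw [hY, e, hy]
    · rw [hY', e, hy']

theorem no_sol {y Y : ℤ} (h1 : ¬ 9 ∣ y) (h2 : ¬ 9 ∣ y + 1) (h : 9 * (y * (y + 1)) = 8 * (y - Y) ^ 2) :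
    False := by
  obtain ⟨w, hw⟩ : 3 ∣ y - Y := Int.prime_three.dvd_of_dvd_pow (n := 2) (by omega)
  rw [hw] at h
  have h3 : y * (y + 1) = 8 * w ^ 2 := by linarith
  have hc : IsCoprime y (y + 1) := ⟨-1, 1, by ring⟩
  have h4 : ¬ 3 ∣ y * (y + 1) := by
    intro e
    obtain ⟨v, rfl⟩ : 3 ∣ w := Int.prime_three.dvd_of_dvd_pow (n := 2) (by omega)
    have h9 : (3 : ℤ) ^ 2 ∣ y * (y + 1) := ⟨8 * v ^ 2, by rw [h3]; ring⟩
    rcases Int.prime_three.dvd_or_dvd e with e | e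
    · exact h1 (((IsCoprime.of_isCoprime_of_dvd_left hc e).pow_left).dvd_of_dvd_mul_right h9)
    · exact h2 (((IsCoprime.of_isCoprime_of_dvd_left hc.symm e).pow_left).dvd_of_dvd_mul_left h9)
  have h5 : y % 3 = 1 := by
    have : ¬ 3 ∣ y := fun e => h4 (e.mul_right _)
    have : ¬ 3 ∣ y + 1 := fun e => h4 (e.mul_left _)
    omega
  have sq3 : ∀ a : ℤ, a ^ 2 % 3 = 0 ∨ a ^ 2 % 3 = 1 := fun a => by
    have : a % 3 = 0 ∨ a % 3 = 1 ∨ a % 3 = 2 := by omega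
    rcases this with e | e | e <;> simp [pow_two, Int.mul_emod, e]
  have sq4 : ∀ a : ℤ, a ^ 2 % 4 = 0 ∨ a ^ 2 % 4 = 1 := fun a => by
    have : a % 4 = 0 ∨ a % 4 = 1 ∨ a % 4 = 2 ∨ a % 4 = 3 := by omega
    rcases this with e | e | e | e <;> simp [pow_two, Int.mul_emod, e]
  rcases Int.even_or_odd' y with ⟨k, rfl | rfl⟩
  · have h6 : (2 * k + 1) * k = (2 * w) ^ 2 := by linarith
    have h7 : (2 : ℤ) ∣ k := by
      have : (2 : ℤ) ∣ (2 * k + 1) * k := ⟨2 * w ^ 2, by rw [h6]; ring⟩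
      rcases Int.prime_two.dvd_or_dvd this with e | e <;> omega
    obtain ⟨a, ha | ha⟩ := Int.sq_of_isCoprime (⟨1, -2, by ring⟩ : IsCoprime (2 * k + 1) k) h6
    · have := sq3 a; omega
    · have := sq4 a; omega
  · have h6 : (2 * k + 1) * (k + 1) = (2 * w) ^ 2 := by linarith
    have h7 : (2 : ℤ) ∣ k + 1 := by
      have : (2 : ℤ) ∣ (2 * k + 1) * (k + 1) := ⟨2 * w ^ 2, by rw [h6]; ring⟩
      rcases Int.prime_two.dvd_or_dvd this with e | e <;> omega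
    obtain ⟨a, ha | ha⟩ := Int.sq_of_isCoprime (⟨-1, 2, by ring⟩ : IsCoprime (2 * k + 1) (k + 1)) h6
    · have := sq4 a; omega
    · have := sq3 a; omega

end Cfsg.Agent.Hay
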