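import Cfsg.Agent.Lib.Core.HayA

/-! # Groups with a strongly `3`-embedded `S₃ × S₃`, I: the exceptional virtual character -/

set_option autoImplicit false
set_option linter.unusedSectionVars false

namespace Cfsg.Agent.Hay

open Subgroup Cfsg.Agent.Coprime Cfsg.Agent.OO DihedralGroup
open scoped Pointwise ComplexConjugate

/-- `S₃` -/
abbrev D3 := DihedralGroup 3

/-- the virtual character `1 + ε - θ` of `S₃` -/
noncomputable def alpha (g : D3) : ℂ := if g ^ 2 = 1 then 0 else 3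

theorem alpha_conj (h g : D3) : alpha (h * g * h⁻¹) = alpha g := by
  simp only [alpha, conj_pow, conj_eq_one_iff]

theorem alpha_vchar : alpha ∈ ZIrr (⊤ : Subgroup D3) := by
  obtain ⟨w, hw⟩ : ∃ w : ℂ, IsPrimitiveRoot w 3 := ⟨_, Complex.isPrimitiveRoot_exp 3 (by norm_num)⟩
  have ho : orderOf (r 1 : D3) = 3 := orderOf_r_one
  obtain ⟨l, hl, hw1⟩ := exists_lin_char_zpowers (r 1 : D3) (ε := w) (by rw [ho, hw.pow_eq_one])
  have h1 := cfInd_vchar (le_top : zpowers (r 1 : D3) ≤ ⊤)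
    (sub_mem (cf1_vchar _) (irr_vchar hl.isIrr))
  have hm := mem_zpowers (r 1 : D3)
  have h2 : l (r 1 ^ 2) = w ^ 2 := by rw [lin_charX hl hm, hw1]
  have h3 : 1 + w + w ^ 2 = 0 := by
    simpa [Finset.sum_range_succ] using hw.geom_sum_eq_zero (by norm_num)
  have hs : ∀ k, sr k ∉ zpowers (r 1 : D3) := by
    rintro k ⟨n, hn⟩
    simp at hn
  have key : ∀ y, (cf1 (zpowers (r 1 : D3)) - l) y +
      (cf1 (zpowers (r 1 : D3)) - l) ((sr 0)⁻¹ * y * sr 0) = alpha y := by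
    intro y
    have : y = 1 ∨ y = r 1 ∨ y = r 1 ^ 2 ∨ ∃ k, y = sr k ∧ ∃ j, (sr 0)⁻¹ * y * sr 0 = sr j := by
      revert y; decide
    rcases this with rfl | rfl | rfl | ⟨k, rfl, j, hj⟩
    · simp [alpha, cf1E (one_mem _), hl.one]
    · rw [show (sr 0)⁻¹ * r 1 * sr 0 = (r 1 ^ 2 : D3) by decide, Pi.sub_apply, Pi.sub_apply,
        cf1E hm, cf1E (pow_mem hm 2), h2, hw1, alpha, if_neg (by decide)]
      linear_combination -h3
    · rw [show (sr 0)⁻¹ * r 1 ^ 2 * sr 0 = (r 1 : D3) by decide, Pi.sub_apply, Pi.sub_apply,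
        cf1E hm, cf1E (pow_mem hm 2), h2, hw1, alpha, if_neg (by decide)]
      linear_combination -h3
    · rw [hj, Pi.sub_apply, Pi.sub_apply, cf1_of_not_mem (hs _), cf1_of_not_mem (hs _),
        cfun0 hl.mem_CF (hs _), cfun0 hl.mem_CF (hs _), alpha, if_pos (by rw [pow_two, sr_mul_self])]
      simp
  convert h1 using 1
  ext g
  rw [cfIndE _ _ (mem_top g), Nat.card_zpowers, ho]
  have h4 := sum_elts_mul_right (mem_top (sr 0 : D3))
    fun x => (cf1 (zpowers (r 1 : D3)) - l) (x⁻¹ * g * x)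
  have h5 : ∑ x ∈ elts ((⊤ : Subgroup D3) : Set D3), ((cf1 (zpowers (r 1 : D3)) - l) (x⁻¹ * g * x) +
      (cf1 (zpowers (r 1 : D3)) - l) ((x * sr 0)⁻¹ * g * (x * sr 0))) = 6 * alpha g := by
    rw [Finset.sum_congr rfl (g := fun _ => alpha g), sum_elts_const, card_top, nat_card]
    · simp
    · intro x _
      rw [show (x * sr 0)⁻¹ * g * (x * sr 0) = (sr 0)⁻¹ * (x⁻¹ * g * x) * sr 0 by group, key]
      simpa using alpha_conj x⁻¹ g
  rw [Finset.sum_add_distrib, h4] at h5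
  push_cast
  linear_combination (-1 / 6 : ℂ) * h5

variable {G : Type*} [Group G] [Finite G] {ι : D3 × D3 →* G} {i : G}

/-- a strongly `3`-embedded `S₃ × S₃` -/
structure Model (ι : D3 × D3 →* G) : Prop where
  inj : Function.Injective ι
  ti : ∀ p q g, p ^ 2 ≠ 1 → g * ι p * g⁻¹ = ι q → g ∈ ι.range
  syl : ¬ 27 ∣ Nat.card G

/-- the support -/
def supp (ι : D3 × D3 →* G) : Set G := ι '' {p | p.1 ^ 2 ≠ 1}
/-- the local virtual character -/
noncomputable def psi (ι : D3 × D3 →* G) : G → ℂ := (supp ι).indicator fun _ => 3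
/-- the exceptional virtual character -/
noncomputable def phi (ι : D3 × D3 →* G) : G → ℂ := cfInd ⊤ ι.range (psi ι)

theorem supp_subset : supp ι ⊆ ι.range := by
  rintro _ ⟨p, -, rfl⟩
  exact ⟨p, rfl⟩

theorem psi_supp : psi ι ∈ suppOn (supp ι) := fun _ hx => Set.indicator_of_notMem hx _

namespace Model

variable (h : Model ι)
include h

theorem swap : Model (ι.comp (MulEquiv.prodComm : D3 × D3 ≃* D3 × D3).toMonoidHom) := by
  refine ⟨h.inj.comp MulEquiv.prodComm.injective, fun p q g hp hg => ?_, h.syl⟩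
  obtain ⟨x, rfl⟩ := h.ti p.swap q.swap g (fun e => hp (by
    rw [← Prod.swap_swap (p ^ 2), ← Prod.swap_one]; exact congrArg Prod.swap e)) hg
  exact ⟨x.swap, rfl⟩

theorem card_range : ♯ι.range = 36 := by
  rw [← Nat.card_congr (MonoidHom.ofInjective h.inj).toEquiv, Nat.card_prod, nat_card]

theorem sum_range (F : G → ℂ) : ∑ x ∈ elts (ι.range : Set G), F x = ∑ p, F (ι p) := by
  classical
  rw [← Finset.sum_image fun _ _ _ _ e => h.inj e]
  exact Finset.sum_congr (by ext x; simp) fun _ _ => rfl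

theorem psi_apply (p : D3 × D3) : psi ι (ι p) = alpha p.1 := by
  rw [psi, alpha]
  split_ifs with e
  · refine Set.indicator_of_notMem ?_ _
    rintro ⟨q, hq, e'⟩
    exact hq (h.inj e' ▸ e)
  · exact Set.indicator_of_mem (show ι p ∈ supp ι from ⟨p, e, rfl⟩) _

theorem normedTI : NormedTI (supp ι) ⊤ ι.range := by
  refine ⟨⟨_, (r 1, 1), by decide, rfl⟩, le_top, ?_, ?_⟩
  · rintro _ ⟨x, rfl⟩ _ ⟨p, hp, rfl⟩
    refine ⟨x * p * x⁻¹, fun e => hp ?_, by simp⟩
    simpa [conj_pow] using e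
  · rintro g - _ ⟨p, hp, rfl⟩ ⟨q, -, e⟩
    exact h.ti p q g (fun e => hp (congrArg Prod.fst e)) e.symm

theorem psi_vchar : psi ι ∈ ZIrr ι.range := by
  obtain ⟨χ, ξ, hχ, hξ, e⟩ := vcharP.1 alpha_vchar
  let f : ι.range →* (⊤ : Subgroup D3) := (topEquiv.symm.toMonoidHom.comp (MonoidHom.fst _ _)).comp
    (MonoidHom.ofInjective h.inj).symm.toMonoidHom
  have key : ∀ {χ : D3 → ℂ}, IsChar ⊤ χ → IsChar ι.range (extendByZero _ fun x => χ (f x)) :=
    fun hχ => hχ.comp f (extendByZero_mem_suppOn _) (congrFun (coe_extendByZero _))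
  convert sub_mem (char_vchar (key hχ)) (char_vchar (key hξ)) using 1
  ext x
  by_cases hx : x ∈ ι.range
  · obtain ⟨p, rfl⟩ := hx
    have h1 : (f ⟨ι p, p, rfl⟩ : D3) = p.1 := congrArg Prod.fst
      ((MonoidHom.ofInjective h.inj).symm_apply_eq.2 (Subtype.ext rfl) :
        (MonoidHom.ofInjective h.inj).symm ⟨ι p, p, rfl⟩ = p)
    rw [h.psi_apply, e, Pi.sub_apply, Pi.sub_apply, ← h1]
    exact congrArg₂ _ (congrFun (coe_extendByZero fun x => χ (f x)) ⟨ι p, p, rfl⟩).symm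
      (congrFun (coe_extendByZero fun x => ξ (f x)) ⟨ι p, p, rfl⟩).symm
  · rw [Pi.sub_apply, extendByZero_mem_suppOn _ x hx, extendByZero_mem_suppOn _ x hx,
      psi_supp x fun e => hx (supp_subset e), sub_zero]

theorem phi_vchar : phi ι ∈ ZIrr (⊤ : Subgroup G) := cfInd_vchar le_top h.psi_vchar

theorem phi_of_mem {p : D3 × D3} (hp : p.1 ^ 2 ≠ 1) : phi ι (ι p) = 3 := by
  rw [phi, normedTI_Ind_id h.normedTI ⟨vchar_mem_CF h.psi_vchar, psi_supp⟩ ⟨p, hp, rfl⟩ (mem_top _),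
    h.psi_apply, alpha, if_neg hp]

theorem phi_cases (x : G) : phi ι x = 0 ∨ phi ι x = 3 := by
  by_cases hx : x ∈ classSupp (supp ι) ⊤
  · obtain ⟨_, ⟨p, hp, rfl⟩, g, hg, rfl⟩ := hx
    rw [cfunJ (vchar_mem_CF h.phi_vchar) hg, h.phi_of_mem hp]
    exact Or.inr rfl
  · exact Or.inl (cfInd_suppOn _ _ psi_supp x hx)

theorem phi_of_sq {x : G} (hx : x ^ 2 = 1) : phi ι x = 0 := by
  refine cfInd_suppOn _ _ psi_supp x ?_
  rintro ⟨_, ⟨p, hp, rfl⟩, g, -, rfl⟩
  rw [conj_pow, conj_eq_one_iff, ← map_pow, ← map_one ι] at hx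
  exact hp (congrArg Prod.fst (h.inj hx))

theorem phi_dot : ⟪phi ι, cf1 ⊤⟫[⊤] = 1 := by
  rw [phi, cfdot_cfInd_left le_top (suppOn_mono supp_subset psi_supp) (cf1_mem_CF _), cfdotE,
    h.sum_range, h.card_range]
  simp only [h.psi_apply, cf1E (mem_top _), map_one, mul_one, alpha]
  rw [Finset.sum_ite, Finset.sum_const_zero, Finset.sum_const,
    show (Finset.univ.filter fun p : D3 × D3 => ¬ p.1 ^ 2 = 1).card = 12 by decide]
  norm_num

theorem pairSum_phi (i : G) : 36 * pairSum (phi ι) i = Nat.card G * pairSum (psi ι) i := by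
  have h1 : ∀ x, ∑ k ∈ elts ((⊤ : Subgroup G) : Set G), ∑ g ∈ elts ((⊤ : Subgroup G) : Set G),
      psi ι (x * (g * i * g⁻¹ * (k * i * k⁻¹)) * x⁻¹) = pairSum (psi ι) i := by
    intro x
    rw [pairSum, ← sum_elts_mul_left (mem_top x) fun k => ∑ g ∈ _, psi ι (g * i * g⁻¹ * (k * i * k⁻¹))]
    refine Finset.sum_congr rfl fun k _ => ?_
    rw [← sum_elts_mul_left (mem_top x) fun g => psi ι (g * i * g⁻¹ * (x * k * i * (x * k)⁻¹))]
    exact Finset.sum_congr rfl fun g _ => congrArg _ (by group)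
  simp only [pairSum, phi, cfIndE' _ _ (mem_top _), h.card_range, ← Finset.mul_sum]
  rw [Finset.sum_congr rfl fun k _ => Finset.sum_comm, Finset.sum_comm,
    Finset.sum_congr rfl fun x _ => h1 x, sum_elts_const, card_top, nsmul_eq_mul, pairSum]
  push_cast
  ring

theorem pairSum_psi (hi : i ^ 2 = 1) (J : D3 × D3 → Prop) [DecidablePred J]
    (hJ : ∀ p, IsConj i (ι p) ↔ J p) : pairSum (psi ι) i = 3 * (♯𝐂[i] : ℂ) ^ 2 *
      (Finset.univ.filter fun x : (D3 × D3) × (D3 × D3) =>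
        J x.1 ∧ J x.2 ∧ (x.1 * x.2).1 ^ 2 ≠ 1).card := by
  classical
  have h1 : ∀ p, ∑ g ∈ elts ((⊤ : Subgroup G) : Set G), (if g * i * g⁻¹ = ι p then (1 : ℂ) else 0) =
      if J p then (♯𝐂[i] : ℂ) else 0 := by
    intro p
    split_ifs with e
    · obtain ⟨c, hc⟩ := isConj_iff.1 ((hJ p).2 e)
      rw [← sum_elts_mul_left (mem_top c), ← sum_elts_subset
        (show ((𝐂[i] : Subgroup G) : Set G) ⊆ (⊤ : Subgroup G) from Set.subset_univ _),
        Finset.sum_congr rfl (g := fun _ => 1), sum_elts_const, nsmul_one]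
      · intro x hx
        rw [if_pos (by
          rw [← hc]
          conv_rhs => rw [← mem_cent1_iff_conj.1 (mem_elts.1 hx)]
          group)]
      · intro x _ hx
        refine if_neg fun e => hx (mem_cent1_iff_conj.2 ?_)
        rw [← hc] at e
        calc x * i * x⁻¹ = c⁻¹ * (c * x * i * (c * x)⁻¹) * c := by group
          _ = i := by rw [e]; group
    · exact Finset.sum_eq_zero fun g _ => if_neg fun e' => e ((hJ p).1 (isConj_iff.2 ⟨g, e'⟩))
  have h2 : ∀ j k : G, j ^ 2 = 1 → k ^ 2 = 1 → psi ι (j * k) = ∑ p, ∑ q,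
      (if j = ι p then (1 : ℂ) else 0) * ((if k = ι q then (1 : ℂ) else 0) * alpha (p * q).1) := by
    intro j k hj hk
    by_cases e : j ∈ ι.range ∧ k ∈ ι.range
    · obtain ⟨⟨p, rfl⟩, q, rfl⟩ := e
      simp [h.inj.eq_iff, ← map_mul, h.psi_apply]
    · have e' : j * k ∉ supp ι := by
        rintro ⟨p, hp, e'⟩
        have hj' : j⁻¹ = j := inv_eq_of_mul_eq_one_right (pow_two j ▸ hj)
        have hk' : k⁻¹ = k := inv_eq_of_mul_eq_one_right (pow_two k ▸ hk)
        have h3 := h.ti p p⁻¹ j (fun e => hp (congrArg Prod.fst e)) (by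
          rw [map_inv, e', mul_inv_rev, hk', ← mul_assoc, ← pow_two, hj, one_mul])
        exact e ⟨h3, by simpa using mul_mem (inv_mem h3) (e' ▸ ⟨p, rfl⟩ : j * k ∈ ι.range)⟩
      rw [psi_supp _ e']
      refine (Finset.sum_eq_zero fun p _ => Finset.sum_eq_zero fun q _ => ?_).symm
      split_ifs with e1 e2
      · exact absurd ⟨⟨p, e1.symm⟩, q, e2.symm⟩ e
      all_goals simp
  have h3 : ∀ g : G, (g * i * g⁻¹) ^ 2 = 1 := fun g => by rw [conj_pow, hi]; simp
  simp only [pairSum, h2 _ _ (h3 _) (h3 _)]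
  rw [Finset.card_filter, Fintype.sum_prod_type,
    Finset.sum_congr rfl fun k _ => Finset.sum_comm, Finset.sum_comm]
  push_cast
  rw [Finset.mul_sum]
  refine Finset.sum_congr rfl fun p _ => ?_
  rw [Finset.sum_congr rfl fun k _ => Finset.sum_comm, Finset.sum_comm, Finset.mul_sum]
  refine Finset.sum_congr rfl fun q _ => ?_
  simp only [← Finset.sum_mul, ← Finset.mul_sum]
  rw [coe_top] at h1
  rw [h1, h1, alpha]
  by_cases e1 : J p <;> by_cases e2 : J q <;> by_cases e3 : (p.1 * q.1) ^ 2 = 1 <;>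
    simp [e1, e2, e3]
  ring

end Model

end Cfsg.Agent.Hay
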