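import Cfsg.Agent.Lib.Core.HayB
import Cfsg.Agent.Lib.OO.BG1

/-! # Groups with a strongly `3`-embedded `S₃ × S₃`, II: Hayden's lemma -/

set_option autoImplicit false
set_option linter.unusedSectionVars false

namespace Cfsg.Agent.Hay

open Subgroup Cfsg.Agent.Coprime Cfsg.Agent.OO DihedralGroup
open scoped Pointwise commutatorElement

variable {G : Type*} [Group G] [Finite G] {ι : D3 × D3 →* G} {K : Subgroup G}

local instance : Fact (Nat.Prime 3) := ⟨Nat.prime_three⟩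

theorem isConj_map {p q x : D3 × D3} (e : q = x * p * x⁻¹) : IsConj (ι p) (ι q) :=
  isConj_iff.2 ⟨ι x, by rw [e]; simp⟩

theorem invol_cases (p : D3 × D3) (h : p ^ 2 = 1) : p = 1 ∨
    (p.1 ≠ 1 ∧ ∃ x, p = x * (sr 0, 1) * x⁻¹) ∨ (p.1 = 1 ∧ ∃ x, p = x * (1, sr 0) * x⁻¹) ∨
    (p.1 ≠ 1 ∧ ∃ x, p = x * (sr 0, sr 0) * x⁻¹) := by
  revert p; decide

namespace Model

variable (h : Model ι)
include h

theorem orderOf_eq (p : D3 × D3) : orderOf (ι p) = orderOf p := orderOf_injective ι h.inj p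

theorem order_two {p : D3 × D3} (h1 : p ^ 2 = 1) (h2 : p ≠ 1) : orderOf (ι p) = 2 := by
  rw [h.orderOf_eq, orderOf_eq_prime h1 h2]

theorem norm_le {p : D3 × D3} (hp : p ^ 2 ≠ 1) : 𝐍(zpowers (ι p)) ≤ ι.range := fun g hg => by
  obtain ⟨k, hk⟩ := conj_mem_of_norm hg (mem_zpowers (ι p))
  exact h.ti p (p ^ k) g hp (by rw [map_zpow]; exact hk.symm)

theorem cent_le {p : D3 × D3} (hp : p ^ 2 ≠ 1) : 𝐂[ι p] ≤ ι.range :=
  (cent_zpowers (ι p) ▸ cent_le_norm _).trans (h.norm_le hp)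

theorem syl_zpowers {p : D3 × D3} (hp : p ^ 2 ≠ 1) (h3 : p ^ 3 = 1) (hK : ι p ∈ K)
    (hq : ∀ q, ι q ∈ K → q ^ 3 = 1 → q = 1 ∨ q = p ∨ q = p ^ 2) : Syl 3 (zpowers (ι p)) K := by
  have hP : IsPGroup 3 (zpowers (ι p)) :=
    abelem_isPGroup (abelem_zpowers (by rw [← map_pow, h3, map_one]))
  refine IsSylowIn.of_syl_norm (zpowers_le.2 hK) (syl_of_max
    (le_inf (zpowers_le.2 hK) le_normalizer) hP fun U h1 h2 hU => le_antisymm (fun x hx => ?_) h1)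
  obtain ⟨q, rfl⟩ := h.norm_le hp (h2 hx).2
  obtain ⟨k, hk⟩ := IsPGroup.iff_orderOf.1 hU ⟨_, hx⟩
  rw [← Subgroup.orderOf_coe, h.orderOf_eq] at hk
  have h4 : orderOf q ∣ 2 * 3 := orderOf_dvd_of_pow_eq_one ((by decide : ∀ q : D3 × D3, q ^ 6 = 1) q)
  have h5 : q ^ 3 = 1 := orderOf_dvd_iff_pow_eq_one.1 (Nat.Coprime.dvd_of_dvd_mul_left
    (by rw [hk]; exact Nat.Coprime.pow_left _ (by norm_num)) h4)
  rcases hq q (h2 hx).1 h5 with rfl | rfl | rfl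
  · rw [map_one]; exact one_mem _
  · exact mem_zpowers _
  · rw [map_pow]; exact pow_mem (mem_zpowers _) _

theorem not_conj : ¬ IsConj (ι (sr 0, 1)) (ι (1, sr 0)) := by
  intro e
  obtain ⟨c, hc⟩ := isConj_iff.1 e
  have hm : ∀ p q, ι q ∈ 𝐂[ι p] ↔ q * p = p * q := fun p q => by
    rw [mem_cent1, ← map_mul, ← map_mul, h.inj.eq_iff]
  have hS := h.syl_zpowers (K := 𝐂[ι (1, sr 0)]) (p := (r 1, 1)) (by decide) (by decide)
    ((hm _ _).2 (by decide)) fun q hq => by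
      rw [hm] at hq; revert q; decide
  obtain ⟨d, -, hd⟩ := hS.exists_conj_le (Q := c •ᶜ zpowers (ι (1, r 1)))
    (by rw [← hc, cent1_conj]; exact conj_mono c (zpowers_le.2 ((hm _ _).2 (by decide))))
    (isPGroup_conj.2 (abelem_isPGroup (abelem_zpowers (by
      rw [← map_pow, show ((1, r 1) : D3 × D3) ^ 3 = 1 by decide, map_one]))))
  rw [conj_conj] at hd
  obtain ⟨k, hk⟩ := hd (conj_mem_conj (mem_zpowers _))
  simp only [← map_zpow] at hk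
  obtain ⟨x, hx⟩ := h.ti _ _ _ (by decide) hk.symm
  rw [← hx, ← map_inv, ← map_mul, ← map_mul] at hk
  have := congrArg Prod.snd (h.inj hk)
  simp only [Prod.pow_snd, one_zpow, Prod.snd_mul, Prod.snd_inv] at this
  exact (by decide : ∀ y : D3, 1 ≠ y * r 1 * y⁻¹) _ this

theorem not_mem_ker : ι (r 1, 1) ∉ cfker ⊤ (phi ι) := fun e => by
  have := cfker1 e
  rw [h.phi_of_mem (by decide), h.phi_of_sq (one_pow 2)] at this
  norm_num at this

theorem conj_cases {p q : D3 × D3} (hp : p ^ 2 = 1) (h1 : p ≠ 1) (e : IsConj (ι p) (ι q)) :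
    (q.1 ≠ 1 ∧ IsConj (ι p) (ι (sr 0, 1))) ∨ (q.1 = 1 ∧ IsConj (ι p) (ι (1, sr 0))) ∨
    (q.1 ≠ 1 ∧ IsConj (ι p) (ι (sr 0, sr 0))) := by
  have h2 : orderOf q = 2 := by
    obtain ⟨c, hc⟩ := isConj_iff.1 e
    rw [← h.orderOf_eq, ← hc, orderOf_conj, h.order_two hp h1]
  rcases invol_cases q (orderOf_dvd_iff_pow_eq_one.1 h2.dvd) with rfl | ⟨h3, x, hx⟩ | ⟨h3, x, hx⟩ |
    ⟨h3, x, hx⟩
  · simp at h2
  exacts [Or.inl ⟨h3, e.trans (isConj_map hx).symm⟩,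
    Or.inr (Or.inl ⟨h3, e.trans (isConj_map hx).symm⟩),
    Or.inr (Or.inr ⟨h3, e.trans (isConj_map hx).symm⟩)]

theorem mem_ker (h3 : ¬ IsConj (ι (1, sr 0)) (ι (sr 0, sr 0))) :
    ι (1, sr 0) ∈ cfker ⊤ (phi ι) := by
  classical
  have hi : ι (1, sr 0) ^ 2 = 1 := by
    rw [← map_pow, show ((1, sr 0) : D3 × D3) ^ 2 = 1 by decide, map_one]
  obtain ⟨y, -, -, -, -, H⟩ := tri h.phi_vchar h.phi_cases h.phi_dot (h.phi_of_sq (one_pow 2))
  obtain ⟨Y, -, -, -, e, hk⟩ := H _ (h.order_two (by decide) (by decide)) (h.phi_of_sq hi)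
  have h1 := h.pairSum_phi (ι (1, sr 0))
  have h2 : ∀ q, IsConj (ι (1, sr 0)) (ι q) → q.1 = 1 := fun q hq => by
    rcases h.conj_cases (by decide) (by decide) hq with e | e | e
    exacts [absurd e.2.symm h.not_conj, e.1, absurd e.2 h3]
  rw [h.pairSum_psi hi _ fun _ => Iff.rfl, Finset.filter_false_of_mem fun x _ hx => hx.2.2 (by
    rw [Prod.fst_mul, h2 _ hx.1, h2 _ hx.2.1, one_mul, one_pow])] at h1
  have h4 : pairSum (phi ι) (ι (1, sr 0)) = 0 := by simpa using h1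
  rw [h4, mul_zero, eq_comm, mul_eq_zero] at e
  refine hk (Eq.symm ?_)
  have := (pow_eq_zero_iff two_ne_zero).1
    (e.resolve_left (pow_ne_zero _ (Nat.cast_ne_zero.2 Nat.card_pos.ne')))
  exact_mod_cast sub_eq_zero.1 this

section
variable (hK : K ⊴ ⊤) (h1 : ι (1, sr 0) ∈ K) (h2 : ι (r 1, 1) ∉ K)
include hK h1

theorem snd_mem (e : D3) : ι (1, e) ∈ K := by
  have hu : ι (1, r 1) ∈ K := by
    have := mul_mem h1 (hK.conj_mem (mem_top (ι (1, r 1))) h1)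
    rwa [← map_inv, ← map_mul, ← map_mul, ← map_mul, show ((1, sr 0) * ((1, r 1) * (1, sr 0) *
      (1, r 1)⁻¹) : D3 × D3) = (1, r 1) by decide] at this
  obtain ⟨k, rfl | rfl⟩ : ∃ k : Fin 3, e = r 1 ^ (k : ℕ) ∨ e = sr 0 * r 1 ^ (k : ℕ) := by
    revert e; decide
  · simpa [← map_pow] using pow_mem hu k
  · simpa [← map_pow, ← map_mul] using mul_mem h1 (pow_mem hu k)

include h2

theorem fst_eq {p : D3 × D3} (hp : ι p ∈ K) : p.1 = 1 := by
  by_contra e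
  have h3 : ι (p.1, 1) ∈ K := by
    have := mul_mem hp (inv_mem (h.snd_mem hK h1 p.2))
    rwa [← map_inv, ← map_mul, show p * (1, p.2)⁻¹ = (p.1, 1) by ext <;> simp] at this
  obtain ⟨x, hx | hx⟩ := (by decide : ∀ a : D3, a ≠ 1 → ∃ x : D3,
    ((r 1, 1) : D3 × D3) = (x, 1) * (a, 1) * (x, 1)⁻¹ ∨
      ((r 1, 1) : D3 × D3) = (a, 1) * ((x, 1) * (a, 1) * (x, 1)⁻¹)) _ e
  · exact h2 (by rw [hx, map_mul, map_mul, map_inv]; exact hK.conj_mem (mem_top _) h3)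
  · exact h2 (by
      rw [hx, map_mul, map_mul, map_mul, map_inv]; exact mul_mem h3 (hK.conj_mem (mem_top _) h3))

theorem exists_mul (g : G) : ∃ k ∈ K, ∃ p, g = k * ι p := by
  have hS := h.syl_zpowers (K := K) (p := (1, r 1)) (by decide) (by decide) (h.snd_mem hK h1 _)
    fun q hq => by
      have := h.fst_eq hK h1 h2 hq
      clear hq; revert q; decide
  have h3 : (K : Set G) * _ = _ := hS.frattini hK
  obtain ⟨k, hk, n, hn, rfl⟩ := h3.symm.subset (mem_top g)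
  obtain ⟨p, rfl⟩ := h.norm_le (by decide) hn.2
  exact ⟨k, hk, p, rfl⟩

theorem exists_index : ∃ C : Subgroup G, der C ≤ K ∧ C.index ≤ 2 := by
  let D : Subgroup G := ((zpowers (r 1 : D3)).prod ⊤).map ι
  have hn : ∀ A : Subgroup G, A ≤ 𝐍(K) := fun A => le_top.trans hK.2
  refine ⟨K ⊔ D, commutator_sup_le (hn _) (commutator_le_left' (hn _)) ?_,
    Nat.le_of_dvd two_pos (index_dvd_two_iff.2 ⟨ι (sr 0, 1), fun g => ?_⟩)⟩
  · rw [commutator_comm]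
    refine commutator_sup_le (hn _) (commutator_le_left' (hn _)) (commutator_le.2 ?_)
    rintro _ ⟨p, ⟨⟨a, ha⟩, -⟩, rfl⟩ _ ⟨q, ⟨⟨b, hb⟩, -⟩, rfl⟩
    rw [← map_commutatorElement]
    have : ⁅p.1, q.1⁆ = 1 := by
      rw [← ha, ← hb]
      exact (Commute.zpow_zpow_self _ _ _).commutator_eq
    rw [show ⁅p, q⁆ = (⁅p.1, q.1⁆, ⁅p.2, q.2⁆) from rfl, this]
    exact h.snd_mem hK h1 _
  · obtain ⟨k, hk, p, rfl⟩ := h.exists_mul hK h1 h2 g
    obtain ⟨n, hn | hn⟩ := (by decide : ∀ a : D3, ∃ k : Fin 3, a * sr 0 = r 1 ^ (k : ℕ) ∨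
      a = r 1 ^ (k : ℕ)) p.1
    · rw [mul_assoc, ← map_mul]
      exact Or.inl (mul_mem_sup hk ⟨_, ⟨show p.1 * sr 0 ∈ zpowers (r 1 : D3) from
        hn ▸ pow_mem (mem_zpowers _) _, mem_top _⟩, rfl⟩)
    · exact Or.inr (mul_mem_sup hk ⟨_, ⟨hn ▸ pow_mem (mem_zpowers _) _, mem_top _⟩, rfl⟩)

end

theorem eq_bot_of_inf (hK : K ⊴ ⊤) (h1 : K ⊓ ι.range = ⊥) : K = ⊥ := by
  let T : Subgroup G := ((zpowers (r 1 : D3)).prod (zpowers (r 1))).map ι
  have hT : ♯T = 3 ^ 2 := by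
    rw [card_map_of_injective h.inj, Nat.card_congr (prodEquiv _ _).toEquiv, Nat.card_prod,
      Nat.card_zpowers, orderOf_r_one, pow_two]
  have hTr : T ≤ ι.range := map_le_range _ _
  have h3 : ∀ x ∈ T, ∃ p, x = ι p ∧ p ^ 3 = 1 := by
    rintro _ ⟨p, ⟨⟨a, ha⟩, b, hb⟩, rfl⟩
    refine ⟨p, rfl, Prod.ext ?_ ?_⟩
    · rw [Prod.pow_fst, ← ha, ← zpow_natCast, ← zpow_mul, mul_comm, zpow_mul]
      exact one_zpow a
    · rw [Prod.pow_snd, ← hb, ← zpow_natCast, ← zpow_mul, mul_comm, zpow_mul]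
      exact one_zpow b
  have hS : Syl 3 T ⊤ := ⟨le_top, isPGroup_of_card_prime_pow hT, fun e => h.syl (by
    rw [← card_top, ← card_mul_relIndex (le_top : T ≤ ⊤), hT]
    exact Nat.mul_dvd_mul_left 9 e)⟩
  have h4 := (hS.normal_inf hK).eq_bot_iff.1 (eq_bot_iff.2 (h1 ▸ inf_le_inf_left _ hTr))
  refine eq_bot_iff.2 (coprime_abelian_gen_cent1 (A := T)
    (IsPGroup.isMulCommutative_of_card_eq_prime_sq hT) (fun e => ?_) (le_top.trans hK.2)
    (hT ▸ (((Nat.Prime.coprime_iff_not_dvd Nat.prime_three).2 h4).symm.pow_right 2)) fun a ha ha1 => ?_)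
  · obtain ⟨x, hx⟩ := exists_zpowers_eq e
    obtain ⟨p, rfl, hp⟩ := h3 x (hx ▸ mem_zpowers x)
    have := orderOf_dvd_of_pow_eq_one hp
    rw [← h.orderOf_eq, ← Nat.card_zpowers, hx, hT] at this
    norm_num at this
  · obtain ⟨p, rfl, hp⟩ := h3 a ha
    refine h1 ▸ inf_le_inf_left _ (h.cent_le fun e => ha1 ?_)
    rw [pow_succ, e, one_mul] at hp
    rw [hp, map_one]

theorem false_of_conj (h3 : ¬ IsConj (ι (1, sr 0)) (ι (sr 0, sr 0)))
    (h4 : IsConj (ι (sr 0, 1)) (ι (sr 0, sr 0))) : False := by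
  have hi : ι (sr 0, 1) ^ 2 = 1 := by
    rw [← map_pow, show ((sr 0, 1) : D3 × D3) ^ 2 = 1 by decide, map_one]
  have ho : orderOf (ι (sr 0, 1)) = 2 := h.order_two (by decide) (by decide)
  have hJ : ∀ p, IsConj (ι (sr 0, 1)) (ι p) ↔ p ^ 2 = 1 ∧ p.1 ≠ 1 := fun p => by
    refine ⟨fun e => ⟨?_, ?_⟩, fun ⟨e1, e2⟩ => ?_⟩
    · obtain ⟨c, hc⟩ := isConj_iff.1 e
      apply h.inj
      rw [map_pow, ← hc, conj_pow, hi]; simp
    · rcases h.conj_cases (by decide) (by decide) e with e | e | e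
      exacts [e.1, absurd e.2 h.not_conj, e.1]
    · rcases invol_cases p e1 with rfl | ⟨-, x, hx⟩ | ⟨e, -⟩ | ⟨-, x, hx⟩
      exacts [absurd rfl e2, isConj_map hx, absurd e e2, h4.trans (isConj_map hx)]
  have hG : (Nat.card G : ℂ) ≠ 0 := Nat.cast_ne_zero.2 Nat.card_pos.ne'
  have hc := cardC_ne_zero 𝐂[ι (sr 0, 1)]
  have e1 : (Nat.card G : ℂ) = 4 * (♯𝐂[ι (sr 0, 1)] : ℂ) ^ 2 := by
    obtain ⟨y, hy, -, -, hb, H⟩ := tri h.phi_vchar h.phi_cases h.phi_dot (h.phi_of_sq (one_pow 2))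
    obtain ⟨Y, ⟨n, hn⟩, b1, b2, e, -⟩ := H _ ho (h.phi_of_sq hi)
    obtain ⟨C, c1, c2⟩ := h.exists_index (cfker_normal (vchar_mem_CF h.phi_vchar)) (h.mem_ker h3)
      h.not_mem_ker
    obtain ⟨b3, b4⟩ := hb C c1 c2
    have h1 := h.pairSum_phi (ι (sr 0, 1))
    rw [h.pairSum_psi hi _ hJ, show Finset.card _ = 96 by decide +kernel] at h1
    have h5 : y * (y + 1) = 2 ∧ (y = Y ∨ (y - Y) ^ 2 = 4) := by
      have := abs_le.1 b3
      have := abs_le.1 b4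
      have hy1 : y = 1 ∨ y = -2 := by
        have := left_ne_zero_of_mul hy
        have := right_ne_zero_of_mul hy
        omega
      rcases hy1 with rfl | rfl
      · have := abs_le.1 (b1.trans (le_of_eq (abs_one)))
        have : Y = 1 ∨ Y = -1 := by omega
        rcases this with rfl | rfl <;> simp
      · have := abs_le.1 (b2.trans (le_of_eq (show |(-2 + 1 : ℤ)| = 1 by simp)))
        have : Y = -2 ∨ Y = 0 := by omega
        rcases this with rfl | rfl <;> simp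
    have h6 : (y : ℂ) * (y + 1) = 2 := by exact_mod_cast h5.1
    rw [h6] at e
    rcases h5.2 with rfl | h7
    · refine absurd ?_ (mul_ne_zero hG (pow_ne_zero 2 hc))
      push_cast at h1
      linear_combination (1 / 16 : ℂ) * e - (1 / 288 : ℂ) * h1
    · have h8 : ((y : ℂ) - Y) ^ 2 = 4 := by exact_mod_cast h7
      rw [h8] at e
      refine mul_left_cancel₀ hG ?_
      push_cast at h1
      linear_combination (-1 / 4 : ℂ) * e + (1 / 72 : ℂ) * h1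
  have h' := h.swap
  obtain ⟨y, -, d1, d2, -, H⟩ := tri h'.phi_vchar h'.phi_cases h'.phi_dot (h'.phi_of_sq (one_pow 2))
  obtain ⟨Y, -, -, -, e, -⟩ := H _ ho (h'.phi_of_sq hi)
  have h1 := h'.pairSum_phi (ι (sr 0, 1))
  rw [h'.pairSum_psi hi (fun p => p.swap ^ 2 = 1 ∧ p.2 ≠ 1) fun p => hJ p.swap,
    show Finset.card _ = 54 by decide +kernel] at h1
  have hd : ∀ z : ℤ, 3 * z ∣ Nat.card G → ¬ 9 ∣ z := fun z hz h9 => h.syl (by
    exact_mod_cast (show ((27 : ℕ) : ℤ) ∣ Nat.card G from (mul_dvd_mul_left 3 h9).trans hz))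
  refine no_sol (Y := Y) (hd _ d1) (hd _ d2) ?_
  have : (9 : ℂ) * (y * (y + 1)) = 8 * (y - Y) ^ 2 := by
    refine mul_left_cancel₀ (mul_ne_zero hG (pow_ne_zero 2 hc)) ?_
    push_cast at h1
    linear_combination (2 : ℂ) * e - (1 / 18 : ℂ) * (y * (y + 1)) * h1 +
      (2 * Nat.card G * (y - Y) ^ 2 : ℂ) * e1
  exact_mod_cast this

theorem range_eq_top : ι.range = ⊤ := by
  have h' := h.swap
  by_cases h3 : IsConj (ι (1, sr 0)) (ι (sr 0, sr 0))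
  · exact (h'.false_of_conj (fun e => h.not_conj (IsConj.trans e h3.symm)) h3).elim
  by_cases h4 : IsConj (ι (sr 0, 1)) (ι (sr 0, sr 0))
  · exact (h.false_of_conj h3 h4).elim
  have n1 := cfker_normal (vchar_mem_CF h.phi_vchar)
  have n2 := cfker_normal (vchar_mem_CF h'.phi_vchar)
  have k1 := h.mem_ker h3
  have k2 := h'.mem_ker h4
  have h5 := h.eq_bot_of_inf (n1.inf n2) (eq_bot_iff.2 (by
    rintro _ ⟨⟨x1, x2⟩, p, rfl⟩
    have e1 := h.fst_eq n1 k1 h.not_mem_ker x1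
    have e2 := h'.fst_eq n2 k2 h'.not_mem_ker (p := p.swap) x2
    rw [show p = 1 from Prod.ext e1 e2, map_one]
    exact one_mem _))
  have h6 := le_cent_of_inf_eq_bot (le_top.trans n2.2) (le_top.trans n1.2) h5
  refine eq_top_iff.2 fun g _ => ?_
  obtain ⟨k, hk, p, rfl⟩ := h.exists_mul n1 k1 h.not_mem_ker g
  exact mul_mem (h.cent_le (p := (r 1, 1)) (by decide)
    (cent_le_cent1 (h'.snd_mem n2 k2 (r 1)) (h6 hk))) ⟨p, rfl⟩

end Model

end Cfsg.Agent.Hay
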