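import Mathlib
import Cfsg.Agent.Lib.Core.Subnormalizer

/-!
# Core/Subnormalizer2: counting conjugates of a `p`-subgroup inside `P V` along a normal series
-/

set_option autoImplicit false

namespace Cfsg.Agent.Core

open Subgroup Coprime

variable {G : Type*} [Group G]

/-- The centralizer of `H` in the section `U / V` (preimage in `U`). -/
def secCentralizer (H U V : Subgroup G) [V.Normal] : Subgroup G :=
  U ⊓ (centralizer ((H.map (QuotientGroup.mk' V) : Subgroup (G ⧸ V)) : Set (G ⧸ V))).comap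
    (QuotientGroup.mk' V)

theorem mem_secCentralizer {H U V : Subgroup G} [V.Normal] {u : G} :
    u ∈ secCentralizer H U V ↔ u ∈ U ∧ ∀ h ∈ H, h * u * h⁻¹ * u⁻¹ ∈ V := by
  have key : ∀ h : G, h * u * h⁻¹ * u⁻¹ ∈ V ↔ QuotientGroup.mk' V h * QuotientGroup.mk' V u =
      QuotientGroup.mk' V u * QuotientGroup.mk' V h := by
    intro h
    rw [← commutatorElement_eq_one_iff_mul_comm, ← map_commutatorElement, ← MonoidHom.mem_ker,
      QuotientGroup.ker_mk', commutatorElement_def]
  simp only [key, secCentralizer, mem_inf, mem_comap, mem_centralizer_iff]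
  refine and_congr_right fun _ => ⟨fun h u hu => h _ (mem_map_of_mem _ hu), ?_⟩
  rintro h _ ⟨u, hu, rfl⟩
  exact h u hu

theorem le_secCentralizer (H : Subgroup G) {U V : Subgroup G} [hV : V.Normal] (h : V ≤ U) :
    V ≤ secCentralizer H U V := fun v hv =>
  mem_secCentralizer.2 ⟨h hv, fun x _ => mul_mem (hV.conj_mem v hv x) (inv_mem hv)⟩

theorem secCentralizer_map_conj (H U V : Subgroup G) [hU : U.Normal] [hV : V.Normal] (y : G) :
    secCentralizer (H.map (MulAut.conj y).toMonoidHom) U V =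
      (secCentralizer H U V).map (MulAut.conj y).toMonoidHom := by
  ext u
  rw [mem_map_conj, mem_secCentralizer, mem_secCentralizer]
  refine and_congr ⟨fun h => by simpa using hU.conj_mem u h y⁻¹, fun h => by
    simpa [mul_assoc] using hU.conj_mem _ h y⟩ ⟨fun h k hk => ?_, ?_⟩
  · have := hV.conj_mem _ (h _ (conj_mem_map_conj (g := y) hk)) y⁻¹
    convert this using 1
    group
  · rintro h k hk
    have := hV.conj_mem _ (h _ (mem_map_conj.1 hk)) y
    convert this using 1
    group

variable [Finite G] {p : ℕ} [Fact p.Prime]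

theorem sylow_sup_eq_of_relIndex_pow (P : Sylow p G) {U V : Subgroup G} [U.Normal] [V.Normal]
    (hVU : V ≤ U) {m : ℕ} (h : V.relIndex U = p ^ m) : (P : Subgroup G) ⊔ V = (P : Subgroup G) ⊔ U := by
  refine le_antisymm (sup_le_sup_left hVU _) (sup_le le_sup_left ?_)
  have h1 : IsPGroup p (U.map (QuotientGroup.mk' V)) :=
    IsPGroup.of_card (by rw [card_map_mk_eq_relIndex, h])
  have : (U.map (QuotientGroup.mk' V)).Normal :=
    Normal.map inferInstance _ (QuotientGroup.mk'_surjective V)
  have h2 := (le_pCore h1).trans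
    (pCore_le_sylow (P.mapSurjective (QuotientGroup.mk'_surjective V)))
  rw [Sylow.coe_mapSurjective] at h2
  exact (map_mk_le_map_mk_iff _ _ _).1 h2

theorem sylow_sup_inf_eq_of_coprime (P : Sylow p G) {U V : Subgroup G} [U.Normal] [V.Normal]
    (hVU : V ≤ U) (h : (V.relIndex U).Coprime p) : ((P : Subgroup G) ⊔ V) ⊓ U = V := by
  rw [sup_inf_eq_inf_sup_of_le_normalizer (le_top.trans (normalizer_eq_top V).ge) hVU, sup_eq_right,
    ← map_mk_eq_bot_iff, ← Subgroup.card_eq_one]
  obtain ⟨k, hk⟩ := IsPGroup.iff_card.1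
    ((P.isPGroup'.to_le (inf_le_left (b := U))).map (QuotientGroup.mk' V))
  have h2 := card_dvd_of_le (map_mono (f := QuotientGroup.mk' V) (inf_le_right (a := ↑P) (b := U)))
  rw [card_map_mk_eq_relIndex _ U] at h2
  exact Nat.Coprime.eq_one_of_dvd (hk ▸ (h.symm.pow_left k)) h2

theorem card_conj_le_sup_fiber (P : Sylow p G) {U V H : Subgroup G} [hU : U.Normal] [hV : V.Normal]
    (hVU : V ≤ U) (h : (V.relIndex U).Coprime p) (hH : IsPGroup p H) (hHU : H ≤ (P : Subgroup G) ⊔ U) :
    Nat.card {u : U // H.map (MulAut.conj (u : G)).toMonoidHom ≤ (P : Subgroup G) ⊔ V} =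
      Nat.card (secCentralizer H U V) := by
  obtain ⟨w, hw, hle⟩ := ((isSylowIn_top P).mono le_sup_left le_top).exists_le_conj hHU hH
  obtain ⟨y, hy, u₀, hu₀, e⟩ := (mem_sup_of_le_normalizer
    (le_top.trans (normalizer_eq_top U).ge)).1 (inv_mem hw)
  have h1 : H.map (MulAut.conj u₀).toMonoidHom ≤ P := by
    have h2 : H.map (MulAut.conj w⁻¹).toMonoidHom ≤ P := by
      rw [map_conj_le_iff, inv_inv]; exact hle
    rw [← e, ← map_conj_map_conj, map_conj_le_iff, map_conj_eq_of_mem (inv_mem hy)] at h2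
    exact h2
  rw [← card_map_conj u₀ (secCentralizer H U V), ← secCentralizer_map_conj]
  set K := H.map (MulAut.conj u₀).toMonoidHom with hK
  have key : ∀ v ∈ U, K.map (MulAut.conj v).toMonoidHom ≤ (P : Subgroup G) ⊔ V ↔ v ∈ secCentralizer K U V := by
    intro v hv
    rw [mem_secCentralizer]
    constructor
    · intro h2
      refine ⟨hv, fun k hk => ?_⟩
      rw [← sylow_sup_inf_eq_of_coprime P hVU h]
      refine mem_inf.2 ⟨?_, mul_mem (hU.conj_mem v hv k) (inv_mem hv)⟩
      have := mul_mem (mem_sup_left (T := V) (h1 hk)) (h2 (conj_mem_map_conj (inv_mem hk)))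
      simpa only [mul_assoc] using this
    · rintro ⟨-, h2⟩ _ ⟨k, hk, rfl⟩
      have := mul_mem (mem_sup_left (T := V) (h1 hk)) (mem_sup_right (h2 k⁻¹ (inv_mem hk)))
      simpa [mul_assoc] using this
  refine Nat.card_congr
    { toFun := fun u => ⟨u.1 * u₀⁻¹, (key _ (mul_mem u.1.2 (inv_mem hu₀))).1 (by
        rw [hK, Core.map_conj_map_conj, inv_mul_cancel_right]; exact u.2)⟩
      invFun := fun v => ⟨⟨v * u₀, mul_mem v.2.1 hu₀⟩, by
        exact (Core.map_conj_map_conj _ _ _).ge.trans ((key _ v.2.1).2 v.2)⟩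
      left_inv := fun u => Subtype.ext (Subtype.ext (inv_mul_cancel_right _ _))
      right_inv := fun v => Subtype.ext (mul_inv_cancel_right _ _) }

theorem card_conj_le_sup_mul (P : Sylow p G) {U V H : Subgroup G} [hU : U.Normal] [hV : V.Normal]
    (hVU : V ≤ U) (h : (V.relIndex U).Coprime p) (hH : IsPGroup p H) :
    Nat.card {x : G // H.map (MulAut.conj x).toMonoidHom ≤ (P : Subgroup G) ⊔ V} * Nat.card U =
      Nat.card {x : G // H.map (MulAut.conj x).toMonoidHom ≤ (P : Subgroup G) ⊔ U} *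
        Nat.card (secCentralizer H U V) := by
  have := Fintype.ofFinite {x : G // H.map (MulAut.conj x).toMonoidHom ≤ (P : Subgroup G) ⊔ U}
  have e : {x : G // H.map (MulAut.conj x).toMonoidHom ≤ (P : Subgroup G) ⊔ V} × U ≃
      Σ x : {x : G // H.map (MulAut.conj x).toMonoidHom ≤ (P : Subgroup G) ⊔ U},
        {u : U // (H.map (MulAut.conj (x : G)).toMonoidHom).map
          (MulAut.conj (u : G)).toMonoidHom ≤ (P : Subgroup G) ⊔ V} :=
    { toFun := fun z => ⟨⟨(z.2 : G)⁻¹ * z.1, by
        rw [← Core.map_conj_map_conj]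
        exact map_conj_le_of_mem (z.1.2.trans (sup_le_sup_left hVU _))
          (inv_mem (mem_sup_right z.2.2))⟩, z.2, by
        rw [Core.map_conj_map_conj, mul_inv_cancel_left]; exact z.1.2⟩
      invFun := fun z => (⟨z.2.1 * z.1, by rw [← Core.map_conj_map_conj]; exact z.2.2⟩, z.2.1)
      left_inv := fun z => Prod.ext (Subtype.ext (mul_inv_cancel_left _ _)) rfl
      right_inv := fun z => by
        obtain ⟨⟨x, hx⟩, u, hu⟩ := z
        refine Sigma.subtype_ext (Subtype.ext (inv_mul_cancel_left _ _)) rfl }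
  rw [← Nat.card_prod, Nat.card_congr e, Nat.card_sigma, Finset.sum_congr rfl
    (g := fun _ => Nat.card (secCentralizer H U V)) fun x _ => by
      rw [card_conj_le_sup_fiber P hVU h (hH.map _) x.2, secCentralizer_map_conj, card_map_conj],
    Finset.sum_const, smul_eq_mul, Finset.card_univ, ← Nat.card_eq_fintype_card]

theorem card_conj_le_sup_mul' (P : Sylow p G) {U V H : Subgroup G} [hU : U.Normal] [hV : V.Normal]
    (hVU : V ≤ U) (h : (V.relIndex U).Coprime p) (hH : IsPGroup p H) :
    Nat.card {x : G // H.map (MulAut.conj x).toMonoidHom ≤ (P : Subgroup G) ⊔ V} *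
      Nat.card ↥((P : Subgroup G) ⊔ U) =
      Nat.card {x : G // H.map (MulAut.conj x).toMonoidHom ≤ (P : Subgroup G) ⊔ U} *
        Nat.card ↥((P : Subgroup G) ⊔ V) * V.relIndex (secCentralizer H U V) := by
  have h1 := card_conj_le_sup_mul P hVU h hH
  have h2 := card_sup_mul_card_inf ((P : Subgroup G) ⊔ V) U
  rw [sylow_sup_inf_eq_of_coprime P hVU h, sup_assoc, sup_eq_right.2 hVU] at h2
  have h3 : Nat.card V * V.relIndex (secCentralizer H U V) = Nat.card (secCentralizer H U V) := by
    rw [← relIndex_bot_left, ← relIndex_bot_left]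
    exact relIndex_mul_relIndex _ _ _ bot_le (le_secCentralizer H hVU)
  refine Nat.eq_of_mul_eq_mul_right (Nat.card_pos (α := V)) ?_
  rw [mul_assoc, h2, mul_left_comm, h1, ← h3]
  ring

end Cfsg.Agent.Core
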